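import Mathlib
import Cfsg.Agent.Lib.Char.Burnside
import Cfsg.Agent.Lib.Hall.Basic
import Cfsg.Agent.Lib.PSolv.Basic

/-!
Groups with an abelian `2`-complement are solvable; the property is inherited by subgroups and quotients.
-/

set_option autoImplicit false

namespace Cfsg.Agent.Lib.AbComp

/-- Elements of odd prime power order have classes of `2`-power size. -/
def ClassProp (T : Type*) [Group T] : Prop :=
  ∀ y : T, ∀ r e : ℕ, r.Prime → r ≠ 2 → orderOf y = r ^ e →
    ∃ k, (Subgroup.centralizer ({y} : Set T)).index = 2 ^ k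

theorem ClassProp.normal {T : Type*} [Group T] [Finite T] (h : ClassProp T) (N : Subgroup T) [N.Normal] :
    ClassProp N := by
  intro y r e hr hr2 ho
  obtain ⟨k, hk⟩ := h y r e hr hr2 (by rw [Subgroup.orderOf_coe, ho])
  have h1 : (Subgroup.centralizer ({y} : Set N)) =
      (Subgroup.centralizer ({(y : T)} : Set T)).subgroupOf N := by
    ext x
    simp [Subgroup.mem_centralizer_singleton_iff, Subgroup.mem_subgroupOf, Subtype.ext_iff]
  have h2 : (Subgroup.centralizer ({y} : Set N)).index ∣ 2 ^ k := by
    rw [h1, ← hk]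
    exact Cfsg.Agent.Lib.PSolv.relIndex_dvd_index_of_normal_right _ _
  obtain ⟨j, -, hj⟩ := (Nat.dvd_prime_pow Nat.prime_two).1 h2
  exact ⟨j, hj⟩

theorem ClassProp.quotient {T : Type*} [Group T] [Finite T] (h : ClassProp T) (N : Subgroup T) [N.Normal] :
    ClassProp (T ⧸ N) := by
  intro y r e hr hr2 ho
  by_cases he : e = 0
  · subst he
    rw [pow_zero, orderOf_eq_one_iff] at ho
    subst ho
    refine ⟨0, ?_⟩
    have : Subgroup.centralizer ({(1 : T ⧸ N)} : Set (T ⧸ N)) = ⊤ := by
      ext x
      simp [Subgroup.mem_centralizer_singleton_iff]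
    rw [this, Subgroup.index_top, pow_zero]
  obtain ⟨x, rfl⟩ := QuotientGroup.mk'_surjective N y
  -- the `r`-part of `x`
  obtain ⟨s, t, hrt, hst⟩ : ∃ s t : ℕ, ¬ r ∣ t ∧ orderOf x = r ^ s * t := by
    have h0 : orderOf x ≠ 0 := (orderOf_pos x).ne'
    exact ⟨(orderOf x).factorization r, ordCompl[r] (orderOf x), Nat.not_dvd_ordCompl hr h0,
      (Nat.ordProj_mul_ordCompl_eq_self _ _).symm⟩
  have hcop : Nat.Coprime t (r ^ e) := Nat.Coprime.pow_right _ ((Nat.Prime.coprime_iff_not_dvd hr).2 hrt).symm
  have h1e : 1 < r ^ e := Nat.one_lt_pow he hr.one_lt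
  obtain ⟨u, -, hu⟩ := Nat.exists_mul_mod_eq_one_of_coprime hcop h1e
  set z := x ^ (t * u) with hz
  have hbar : QuotientGroup.mk' N z = QuotientGroup.mk' N x := by
    rw [hz, map_pow]
    have h3 : (QuotientGroup.mk' N x) ^ (r ^ e) = 1 := by
      rw [← ho]
      exact pow_orderOf_eq_one _
    rw [← Nat.div_add_mod (t * u) (r ^ e), hu, pow_add, pow_mul, h3, one_pow, one_mul, pow_one]
  obtain ⟨s', -, hs'⟩ : ∃ s', s' ≤ s ∧ orderOf z = r ^ s' := by
    have h4 : orderOf z ∣ r ^ s := by
      apply orderOf_dvd_of_pow_eq_one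
      rw [hz, ← pow_mul]
      have h5 : t * u * r ^ s = orderOf x * u := by
        rw [hst]
        ring
      rw [h5, pow_mul, pow_orderOf_eq_one, one_pow]
    exact (Nat.dvd_prime_pow hr).1 h4
  obtain ⟨k, hk⟩ := h z r s' hr hr2 hs'
  rw [← hbar]
  have h6 : (Subgroup.centralizer ({z} : Set T)).map (QuotientGroup.mk' N) ≤
      Subgroup.centralizer ({QuotientGroup.mk' N z} : Set (T ⧸ N)) := by
    rintro _ ⟨w, hw, rfl⟩
    rw [SetLike.mem_coe, Subgroup.mem_centralizer_singleton_iff] at hw
    rw [Subgroup.mem_centralizer_singleton_iff, ← map_mul, ← map_mul, hw]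
  have h7 : (Subgroup.centralizer ({QuotientGroup.mk' N z} : Set (T ⧸ N))).index ∣ 2 ^ k := by
    rw [← hk]
    exact (Subgroup.index_dvd_of_le h6).trans (Subgroup.index_map_dvd _ (QuotientGroup.mk'_surjective N))
  obtain ⟨j, -, hj⟩ := (Nat.dvd_prime_pow Nat.prime_two).1 h7
  exact ⟨j, hj⟩

/-- The class property forces solvability. -/
theorem ClassProp.solvable (c : ℕ) {T : Type*} [Group T] [Finite T] (hc : Nat.card T = c) (h : ClassProp T) :
    Group.IsSolvable T := by
  induction c using Nat.strong_induction_on generalizing T with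
  | _ c ih =>
    by_cases hsimple : IsSimpleGroup T
    · -- find an element of odd prime order
      by_cases h2 : IsPGroup 2 T
      · haveI : Fact (Nat.Prime 2) := ⟨Nat.prime_two⟩
        haveI : Group.IsNilpotent T := h2.isNilpotent
        infer_instance
      · obtain ⟨r, hr, hr2, hdvd⟩ : ∃ r : ℕ, r.Prime ∧ r ≠ 2 ∧ r ∣ Nat.card T := by
          by_contra hcon
          push Not at hcon
          apply h2
          exact IsPGroup.of_card (Nat.eq_prime_pow_of_unique_prime_dvd (Nat.card_pos (α := T)).ne'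
            (fun {d} hd hd2 => by
              by_contra hne
              exact hcon d hd hne hd2))
        haveI : Fact r.Prime := ⟨hr⟩
        obtain ⟨y, hy⟩ := exists_prime_orderOf_dvd_card' r hdvd
        obtain ⟨k, hk⟩ := h y r 1 hr hr2 (by rw [hy, pow_one])
        have hy1 : y ≠ 1 := by
          rintro rfl
          rw [orderOf_one] at hy
          exact hr.one_lt.ne hy
        have hprime := Cfsg.Agent.Lib.Char.prime_card_of_conjClass_prime_pow 2 k Nat.prime_two y hy1 hk
        haveI : Fact (Nat.card T).Prime := ⟨hprime⟩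
        have hcyc : IsCyclic T := isCyclic_of_prime_card rfl
        letI := IsCyclic.commGroup (α := T)
        infer_instance
    · by_cases hsub : Subsingleton T
      · infer_instance
      · obtain ⟨N, hN, hbot, htop⟩ : ∃ N : Subgroup T, N.Normal ∧ N ≠ ⊥ ∧ N ≠ ⊤ := by
          by_contra hcon
          push Not at hcon
          apply hsimple
          haveI : Nontrivial T := not_subsingleton_iff_nontrivial.1 hsub
          refine ⟨fun H hH => ?_⟩
          by_cases hb : H = ⊥
          · exact Or.inl hb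
          · exact Or.inr (hcon H hH hb)
        haveI := hN
        have hcard := Subgroup.card_eq_card_quotient_mul_card_subgroup N
        have hN1 : 1 < Nat.card N := by
          rcases Nat.lt_or_ge 1 (Nat.card N) with h1 | h1
          · exact h1
          · exfalso
            have h0 : Nat.card N = 1 := le_antisymm h1 Nat.card_pos
            exact hbot ((Subgroup.card_eq_one).1 h0)
        have hQ1 : 1 < Nat.card (T ⧸ N) := by
          rcases Nat.lt_or_ge 1 (Nat.card (T ⧸ N)) with h1 | h1
          · exact h1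
          · exfalso
            have h0 : Nat.card (T ⧸ N) = 1 := le_antisymm h1 Nat.card_pos
            apply htop
            apply Subgroup.eq_top_of_card_eq
            rw [hcard, h0, one_mul]
        have hlt1 : Nat.card N < c := by
          rw [← hc, hcard]
          exact lt_mul_of_one_lt_left Nat.card_pos hQ1
        have hlt2 : Nat.card (T ⧸ N) < c := by
          rw [← hc, hcard]
          exact lt_mul_of_one_lt_right Nat.card_pos hN1
        haveI := ih _ hlt1 rfl (h.normal N)
        haveI := ih _ hlt2 rfl (h.quotient N)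
        exact solvable_of_ker_le_range N.subtype (QuotientGroup.mk' N) (by simp)

/-- A group with a complement-type factorisation has the class property. -/
theorem classProp_of_complement {H : Type*} [Group H] [Finite H] (S C : Subgroup H)
    (hS : IsPGroup 2 S) (hC : IsMulCommutative C) (hSC : Subgroup.IsComplement' S C) : ClassProp H := by
  intro y r e hr hr2 ho
  haveI : Fact r.Prime := ⟨hr⟩
  have hy : IsPGroup r (Subgroup.zpowers y) := by
    apply IsPGroup.of_card (n := e)
    rw [Nat.card_zpowers, ho]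
  obtain ⟨a, ha⟩ : ∃ a, Nat.card S = 2 ^ a := by
    haveI : Fact (Nat.Prime 2) := ⟨Nat.prime_two⟩
    obtain ⟨a, ha⟩ := IsPGroup.iff_card.1 hS
    exact ⟨a, ha⟩
  have hcard := hSC.card_mul_card
  have hq : Nat.card (H ⧸ C) = 2 ^ a := by
    have h1 := Subgroup.card_eq_card_quotient_mul_card_subgroup C
    rw [← hcard] at h1
    have h2 : Nat.card C ≠ 0 := Nat.card_pos.ne'
    rw [← ha]
    exact (Nat.eq_of_mul_eq_mul_right (Nat.pos_of_ne_zero h2) h1).symm
  have hnd : ¬ r ∣ Nat.card (H ⧸ C) := by
    rw [hq]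
    intro h
    have := (Nat.prime_dvd_prime_iff_eq hr Nat.prime_two).1 (hr.dvd_of_dvd_pow h)
    exact hr2 this
  obtain ⟨q, hq2⟩ := hy.nonempty_fixed_point_of_prime_not_dvd_card (H ⧸ C) hnd
  obtain ⟨g, rfl⟩ := QuotientGroup.mk_surjective q
  have hfix : y • (g : H ⧸ C) = g := by
    exact hq2 ⟨y, Subgroup.mem_zpowers y⟩
  have hmem : g⁻¹ * y * g ∈ C := by
    have h3 : ((y * g : H) : H ⧸ C) = g := hfix
    rw [QuotientGroup.eq] at h3
    have h4 : (y * g)⁻¹ * g ∈ C := h3
    have h5 := C.inv_mem h4
    convert h5 using 1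
    group
  -- centraliser
  have hle : C ≤ Subgroup.centralizer ({g⁻¹ * y * g} : Set H) := by
    intro c hc
    rw [Subgroup.mem_centralizer_singleton_iff]
    have := hC.is_comm.comm ⟨c, hc⟩ ⟨_, hmem⟩
    exact congrArg Subtype.val this
  have h6 : Subgroup.centralizer ({g⁻¹ * y * g} : Set H) =
      (Subgroup.centralizer ({y} : Set H)).map ((MulAut.conj g⁻¹ : H ≃* H) : H →* H) := by
    ext x
    simp only [Subgroup.mem_centralizer_singleton_iff, Subgroup.mem_map]
    constructor
    · intro hx
      refine ⟨g * x * g⁻¹, ?_, ?_⟩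
      · calc g * x * g⁻¹ * y = g * (x * (g⁻¹ * y * g)) * g⁻¹ := by group
          _ = g * ((g⁻¹ * y * g) * x) * g⁻¹ := by rw [hx]
          _ = _ := by group
      · simp
        group
    · rintro ⟨z, hz, rfl⟩
      simp
      calc g⁻¹ * z * g * (g⁻¹ * y * g) = g⁻¹ * (z * y) * g := by group
        _ = g⁻¹ * (y * z) * g := by rw [hz]
        _ = _ := by group
  have h7 : (Subgroup.centralizer ({g⁻¹ * y * g} : Set H)).index =
      (Subgroup.centralizer ({y} : Set H)).index := by
    rw [h6]
    exact Subgroup.index_map_equiv _ _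
  have h8 : (Subgroup.centralizer ({g⁻¹ * y * g} : Set H)).index ∣ 2 ^ a := by
    rw [← hq, ← Subgroup.index_eq_card]
    exact Subgroup.index_dvd_of_le hle
  rw [h7] at h8
  obtain ⟨j, -, hj⟩ := (Nat.dvd_prime_pow Nat.prime_two).1 h8
  exact ⟨j, hj⟩

end Cfsg.Agent.Lib.AbComp
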