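import Mathlib
import Cfsg.Agent.Lib.Block.Klein2
import Cfsg.Agent.Lib.ZStar.CharSum
import Cfsg.Agent.Lib.Char.Brauer

/-!
# An involution with centraliser of order four and no Klein fusion

If `|C(x)| = 4` and no product `u x` with `u ~ x` is conjugate to `x`, the class function `4·1_{x^G}`
factors as `(1 - τ)(1 + χ)` with `τ` linear, `τ x = -1`, and `χ` irreducible with `χ x = 1`.
-/

set_option autoImplicit false
set_option linter.unusedSectionVars false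
set_option linter.unusedSimpArgs false
set_option linter.unusedVariables false

open scoped ComplexConjugate
open Cfsg Cfsg.Agent.Lib.Char Cfsg.Agent.Lib.Block

namespace Cfsg.Agent.Lib.InvolChar

/-- The integer arithmetic of the three signs. -/
theorem sign_pattern (a₁ a₂ a₃ d₁ d₂ d₃ : ℤ) (h1 : a₁ = 1 ∨ a₁ = -1) (h2 : a₂ = 1 ∨ a₂ = -1) (h3 : a₃ = 1 ∨ a₃ = -1)
    (p1 : 1 ≤ d₁) (p2 : 1 ≤ d₂) (p3 : 1 ≤ d₃) (e1 : 1 + a₁ * d₁ + a₂ * d₂ + a₃ * d₃ = 0)
    (e2 : d₁ * d₂ * d₃ + a₁ * d₂ * d₃ + a₂ * d₁ * d₃ + a₃ * d₁ * d₂ = 0) :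
    (a₁ = -1 ∧ d₁ = 1 ∧ ((a₂ = 1 ∧ a₃ = -1) ∨ (a₂ = -1 ∧ a₃ = 1))) ∨
    (a₂ = -1 ∧ d₂ = 1 ∧ ((a₁ = 1 ∧ a₃ = -1) ∨ (a₁ = -1 ∧ a₃ = 1))) ∨
    (a₃ = -1 ∧ d₃ = 1 ∧ ((a₁ = 1 ∧ a₂ = -1) ∨ (a₁ = -1 ∧ a₂ = 1))) := by
  have key : (1 + a₁ * d₁) * (1 + a₂ * d₂) * (1 + a₃ * d₃) = 0 := by
    rcases h1 with rfl | rfl <;> rcases h2 with rfl | rfl <;> rcases h3 with rfl | rfl <;>
      first
      | linear_combination e1 + e2
      | linear_combination e1 - e2
  rcases mul_eq_zero.1 key with h | h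
  · rcases mul_eq_zero.1 h with h | h
    · left
      rcases h1 with rfl | rfl <;> rcases h2 with rfl | rfl <;> rcases h3 with rfl | rfl <;> omega
    · right; left
      rcases h1 with rfl | rfl <;> rcases h2 with rfl | rfl <;> rcases h3 with rfl | rfl <;> omega
  · right; right
    rcases h1 with rfl | rfl <;> rcases h2 with rfl | rfl <;> rcases h3 with rfl | rfl <;> omega

variable {G : Type*} [Group G] [Fintype G]

open Classical in
theorem e4_chars {x : G} (hx : orderOf x = 2)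
    (hC4 : Nat.card (Subgroup.centralizer ({x} : Set G)) = 4)
    (hodd : ∀ u, IsConj x u → ¬ IsConj x (u * x)) :
    ∃ τ χ : IrrCharacter G, (∀ g h, (τ : G → ℂ) (g * h) = (τ : G → ℂ) g * (τ : G → ℂ) h) ∧
      (τ : G → ℂ) x = -1 ∧ (χ : G → ℂ) x = 1 ∧
      ∀ g, (1 - (τ : G → ℂ) g) * (1 + (χ : G → ℂ) g) = if IsConj x g then 4 else 0 := by
  classical
  choose a ha using fun χ : IrrCharacter G => char_involution_int χ hx
  set o := oneIrr G with ho
  have hoc : ∀ g, ((o : IrrCharacter G) : G → ℂ) g = 1 := fun g => rfl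
  have hao : a o = 1 := by
    have h : (1 : ℂ) = a o := ha o
    exact_mod_cast h.symm
  -- column orthogonality
  have hcol : ∀ g, ∑ χ : IrrCharacter G, (a χ : ℂ) * (χ : G → ℂ) g = if IsConj x g then 4 else 0 := by
    intro g
    have h1 := second_orthogonality x g
    have h3 : ∀ χ : IrrCharacter G, (starRingEnd ℂ) ((χ : G → ℂ) x) = (a χ : ℂ) := by
      intro χ
      rw [ha χ]
      simp
    have h2 := congrArg (starRingEnd ℂ) h1
    simp only [map_sum, map_mul, Complex.conj_conj, hC4, h3] at h2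
    rw [h2]
    by_cases h : IsConj x g
    · rw [if_pos h, if_pos h, Complex.conj_natCast]
      norm_num
    · rw [if_neg h, if_neg h, map_zero]
  set S := Finset.univ.filter (fun χ : IrrCharacter G => χ ≠ o ∧ a χ ≠ 0) with hS
  have hsplit : ∀ f : IrrCharacter G → ℂ, ∑ χ : IrrCharacter G, (a χ : ℂ) * f χ = f o + ∑ χ ∈ S, (a χ : ℂ) * f χ := by
    intro f
    rw [← Finset.add_sum_erase Finset.univ _ (Finset.mem_univ o), hao]
    simp only [Int.cast_one, one_mul]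
    congr 1
    symm
    apply Finset.sum_subset
    · intro χ hχ
      have := (Finset.mem_filter.1 hχ).2.1
      exact Finset.mem_erase.2 ⟨this, Finset.mem_univ _⟩
    · intro χ hχ hχ'
      have h1 : χ ≠ o := Finset.ne_of_mem_erase hχ
      have h2 : a χ = 0 := by
        by_contra h3
        exact hχ' (Finset.mem_filter.2 ⟨Finset.mem_univ _, h1, h3⟩)
      simp [h2]
  have hsq : ∑ χ ∈ S, (a χ) ^ 2 = 3 := by
    have h1 := hcol x
    rw [if_pos (IsConj.refl x)] at h1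
    have h2 := hsplit (fun χ => (a χ : ℂ))
    have h3 : ∑ χ : IrrCharacter G, (a χ : ℂ) * (χ : G → ℂ) x = ∑ χ : IrrCharacter G, (a χ : ℂ) * (a χ : ℂ) := by
      refine Finset.sum_congr rfl fun χ _ => ?_
      rw [ha χ]
    rw [h3, h2, hao] at h1
    simp only [Int.cast_one] at h1
    have h4 : ((1 : ℤ) + ∑ χ ∈ S, (a χ) ^ 2 : ℤ) = 4 := by
      have : ((((1 : ℤ) + ∑ χ ∈ S, (a χ) ^ 2 : ℤ)) : ℂ) = ((4 : ℤ) : ℂ) := by
        push_cast
        rw [← h1]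
        congr 1
        refine Finset.sum_congr rfl fun χ _ => ?_
        ring
      exact_mod_cast this
    linarith
  have hne0 : ∀ χ ∈ S, a χ ≠ 0 := fun χ hχ => (Finset.mem_filter.1 hχ).2.2
  obtain ⟨hS3, hsign⟩ := Cfsg.Agent.Lib.Block.three_signs S a hne0 hsq
  -- degrees
  have hdeg : ∀ χ : IrrCharacter G, (χ : G → ℂ) 1 = ((charDegree (χ : G → ℂ) : ℤ) : ℂ) := by
    intro χ
    rw [← charDegree_cast (IsIrrCharacter.isCharacter χ.2)]
    simp
  have hdp : ∀ χ : IrrCharacter G, (1 : ℤ) ≤ (charDegree (χ : G → ℂ) : ℤ) := by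
    intro χ
    have := charDegree_pos_of_irr χ.2
    omega
  -- orthogonality with the degrees
  have horth : 1 + ∑ χ ∈ S, a χ * (charDegree (χ : G → ℂ) : ℤ) = 0 := by
    have h1 := hcol 1
    have h0 : ¬ IsConj x 1 := by
      rw [isConj_one_left]
      intro e
      rw [e, orderOf_one] at hx
      omega
    rw [if_neg h0, hsplit, hoc] at h1
    have : (((1 + ∑ χ ∈ S, a χ * (charDegree (χ : G → ℂ) : ℤ) : ℤ)) : ℂ) = ((0 : ℤ) : ℂ) := by
      rw [Int.cast_zero, ← h1]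
      push_cast
      congr 1
      refine Finset.sum_congr rfl fun χ _ => ?_
      rw [hdeg χ]
      simp
    exact_mod_cast this
  -- the class algebra constant
  set D := Finset.univ.filter (fun u : G => IsConj x u) with hD
  have hindex : ((Subgroup.centralizer ({x} : Set G)).index : ℂ) ≠ 0 := by
    have : (Subgroup.centralizer ({x} : Set G)).index ≠ 0 := Subgroup.index_ne_zero_of_finite
    exact_mod_cast this
  have hthird : 1 + ∑ χ ∈ S, (a χ : ℂ) * ((a χ : ℂ) ^ 2 / (χ : G → ℂ) 1) = 0 := by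
    have h1 : ∑ u ∈ D, ∑ χ : IrrCharacter G, (a χ : ℂ) * (χ : G → ℂ) (u * x) = 0 := by
      apply Finset.sum_eq_zero
      intro u hu
      rw [hcol, if_neg (hodd u (Finset.mem_filter.1 hu).2)]
    rw [Finset.sum_comm] at h1
    have h2 : ∀ χ : IrrCharacter G, ∑ u ∈ D, (a χ : ℂ) * (χ : G → ℂ) (u * x) =
        ((Subgroup.centralizer ({x} : Set G)).index : ℂ) * ((a χ : ℂ) * ((a χ : ℂ) ^ 2 / (χ : G → ℂ) 1)) := by
      intro χ
      rw [← Finset.mul_sum, Cfsg.Agent.Lib.ZStar.sum_conj_mul χ x x, ha χ]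
      ring
    simp only [h2] at h1
    rw [← Finset.mul_sum, hsplit (fun χ => (a χ : ℂ) ^ 2 / (χ : G → ℂ) 1)] at h1
    have h3 := (mul_eq_zero.1 h1).resolve_left hindex
    simpa [hoc, hao] using h3
  -- three characters
  obtain ⟨s₁, s₂, s₃, h12, h13, h23, hSeq⟩ := Finset.card_eq_three.1 hS3
  have hm1 : s₁ ∈ S := by rw [hSeq]; simp
  have hm2 : s₂ ∈ S := by rw [hSeq]; simp
  have hm3 : s₃ ∈ S := by rw [hSeq]; simp
  have hsum3 : ∀ {R : Type} [AddCommMonoid R] (f : IrrCharacter G → R), ∑ χ ∈ S, f χ = f s₁ + f s₂ + f s₃ := by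
    intro R _ f
    rw [hSeq, Finset.sum_insert (by simp [h12, h13]), Finset.sum_insert (by simp [h23]), Finset.sum_singleton, add_assoc]
  set d : IrrCharacter G → ℤ := fun χ => (charDegree (χ : G → ℂ) : ℤ) with hd
  have hsq1 : ∀ χ ∈ S, (a χ) ^ 2 = 1 := by
    intro χ hχ
    rcases hsign χ hχ with h | h <;> rw [h] <;> norm_num
  have hd0 : ∀ χ : IrrCharacter G, ((d χ : ℤ) : ℂ) ≠ 0 := by
    intro χ
    have := hdp χ
    have h2 : d χ ≠ 0 := by
      show (charDegree (χ : G → ℂ) : ℤ) ≠ 0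
      omega
    exact_mod_cast h2
  have e1 : 1 + a s₁ * d s₁ + a s₂ * d s₂ + a s₃ * d s₃ = 0 := by
    rw [hsum3 (fun χ => a χ * (charDegree (χ : G → ℂ) : ℤ))] at horth
    linarith
  have e2 : d s₁ * d s₂ * d s₃ + a s₁ * d s₂ * d s₃ + a s₂ * d s₁ * d s₃ + a s₃ * d s₁ * d s₂ = 0 := by
    rw [hsum3 (fun χ => (a χ : ℂ) * ((a χ : ℂ) ^ 2 / (χ : G → ℂ) 1))] at hthird
    have hs : ∀ χ ∈ S, (a χ : ℂ) ^ 2 = 1 := by
      intro χ hχ
      exact_mod_cast hsq1 χ hχ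
    rw [hs s₁ hm1, hs s₂ hm2, hs s₃ hm3, hdeg s₁, hdeg s₂, hdeg s₃] at hthird
    have h1 := hd0 s₁
    have h2 := hd0 s₂
    have h3 := hd0 s₃
    have hth : 1 + (a s₁ : ℂ) * (1 / ((d s₁ : ℤ) : ℂ)) + (a s₂ : ℂ) * (1 / ((d s₂ : ℤ) : ℂ)) + (a s₃ : ℂ) * (1 / ((d s₃ : ℤ) : ℂ)) = 0 := by
      linear_combination hthird
    have : (((d s₁ * d s₂ * d s₃ + a s₁ * d s₂ * d s₃ + a s₂ * d s₁ * d s₃ + a s₃ * d s₁ * d s₂ : ℤ)) : ℂ) = ((0 : ℤ) : ℂ) := by
      push_cast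
      field_simp at hth
      linear_combination hth
    exact_mod_cast this
  -- the pattern: find `τ`, `χ`, `χ'`
  have hpat : ∃ τ χ χ' : IrrCharacter G, S = {τ, χ, χ'} ∧ τ ≠ χ ∧ τ ≠ χ' ∧ χ ≠ χ' ∧ a τ = -1 ∧ d τ = 1 ∧ a χ = 1 ∧ a χ' = -1 := by
    rcases sign_pattern _ _ _ _ _ _ (hsign s₁ hm1) (hsign s₂ hm2) (hsign s₃ hm3) (hdp s₁) (hdp s₂) (hdp s₃) e1 e2 with
      ⟨h1, h2, h3 | h3⟩ | ⟨h1, h2, h3 | h3⟩ | ⟨h1, h2, h3 | h3⟩
    · exact ⟨s₁, s₂, s₃, hSeq, h12, h13, h23, h1, h2, h3.1, h3.2⟩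
    · exact ⟨s₁, s₃, s₂, by rw [hSeq]; ext; simp; tauto, h13, h12, h23.symm, h1, h2, h3.2, h3.1⟩
    · exact ⟨s₂, s₁, s₃, by rw [hSeq]; ext; simp; tauto, h12.symm, h23, h13, h1, h2, h3.1, h3.2⟩
    · exact ⟨s₂, s₃, s₁, by rw [hSeq]; ext; simp; tauto, h23, h12.symm, h13.symm, h1, h2, h3.2, h3.1⟩
    · exact ⟨s₃, s₁, s₂, by rw [hSeq]; ext; simp; tauto, h13.symm, h23.symm, h12, h1, h2, h3.1, h3.2⟩
    · exact ⟨s₃, s₂, s₁, by rw [hSeq]; ext; simp; tauto, h23.symm, h13.symm, h12.symm, h1, h2, h3.2, h3.1⟩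
  obtain ⟨τ, χ, χ', hSe, hτχ, hτχ', hχχ', haτ, hdτ, haχ, haχ'⟩ := hpat
  have hτ1 : (τ : G → ℂ) 1 = 1 := by
    rw [hdeg τ]
    show ((d τ : ℤ) : ℂ) = 1
    rw [hdτ]
    simp
  have hτc := IsIrrCharacter.isCharacter τ.2
  obtain ⟨lam, hlam⟩ := exists_hom_of_character_one hτc hτ1
  have hτmul : ∀ g h, (τ : G → ℂ) (g * h) = (τ : G → ℂ) g * (τ : G → ℂ) h := by
    intro g h
    rw [hlam]
    simp
  have hτx : (τ : G → ℂ) x = -1 := by rw [ha τ, haτ]; simp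
  have hχx : (χ : G → ℂ) x = 1 := by rw [ha χ, haχ]; simp
  have hτne : ∀ g, (τ : G → ℂ) g ≠ 0 := by
    intro g
    rw [hlam]
    exact (lam g).ne_zero
  -- the twist
  let ψ : IrrCharacter G := ⟨(χ : G → ℂ) * (τ : G → ℂ), isIrr_mul_linear χ.2 hτc hτ1⟩
  have hψ : ∀ g, (ψ : G → ℂ) g = (χ : G → ℂ) g * (τ : G → ℂ) g := fun g => rfl
  have hψx : (ψ : G → ℂ) x = -1 := by rw [hψ, hχx, hτx]; ring
  have haψ : a ψ = -1 := by
    have h := ha ψ
    rw [hψx] at h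
    have : ((a ψ : ℤ) : ℂ) = ((-1 : ℤ) : ℂ) := by
      rw [← h]
      simp
    exact_mod_cast this
  have hψS : ψ ∈ S := by
    refine Finset.mem_filter.2 ⟨Finset.mem_univ _, ?_, by rw [haψ]; norm_num⟩
    intro h
    have h1 : (ψ : G → ℂ) x = 1 := by
      rw [h]
      exact hoc x
    rw [hψx] at h1
    norm_num at h1
  have hψχ' : ψ = χ' := by
    rw [hSe] at hψS
    simp only [Finset.mem_insert, Finset.mem_singleton] at hψS
    rcases hψS with h | h | h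
    · exfalso
      have hχo : χ = o := by
        apply Subtype.ext
        funext g
        have h1 : (ψ : G → ℂ) g = (τ : G → ℂ) g := by rw [h]
        rw [hψ] at h1
        have h2 := mul_right_cancel₀ (hτne g) (h1.trans (one_mul _).symm)
        rw [h2]
        rfl
      have : χ ∈ S := by rw [hSe]; simp
      exact (Finset.mem_filter.1 this).2.1 hχo
    · exfalso
      rw [h, haχ] at haψ
      norm_num at haψ
    · exact h
  refine ⟨τ, χ, hτmul, hτx, hχx, ?_⟩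
  intro g
  have h1 := hcol g
  rw [hsplit, hoc, hSe, Finset.sum_insert (by simp [hτχ, hτχ']), Finset.sum_insert (by simp [hχχ']),
    Finset.sum_singleton, haτ, haχ, haχ', ← hψχ', hψ] at h1
  rw [← h1]
  push_cast
  ring

end Cfsg.Agent.Lib.InvolChar
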