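import Mathlib

/-!
Idempotent endomorphisms of a finite-dimensional complex space summing to the identity are
mutually orthogonal.
-/

set_option autoImplicit false

namespace Cfsg.Agent.Lib.InvolChar

open Module

theorem idempotents_mul_eq_zero {V : Type*} [AddCommGroup V] [Module ℂ V] [FiniteDimensional ℂ V]
    {ι : Type*} [Fintype ι] [DecidableEq ι] (P : ι → Module.End ℂ V)
    (hP : ∀ i, IsIdempotentElem (P i)) (hsum : ∑ i, P i = 1) {i j : ι} (hij : i ≠ j) :
    P i * P j = 0 := by
  let W : ι → Submodule ℂ V := fun i => LinearMap.range (P i)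
  let Φ : (Π i, W i) →ₗ[ℂ] V := ∑ i, (W i).subtype ∘ₗ LinearMap.proj i
  have hΦ : ∀ w, Φ w = ∑ i, (w i : V) := by
    intro w
    simp [Φ, LinearMap.sum_apply]
  have hsum' : ∀ v, ∑ i, P i v = v := by
    intro v
    have := congrArg (fun L : Module.End ℂ V => L v) hsum
    simpa [LinearMap.sum_apply] using this
  have hsurj : Function.Surjective Φ := by
    intro v
    refine ⟨fun i => ⟨P i v, LinearMap.mem_range_self _ _⟩, ?_⟩
    rw [hΦ]
    exact hsum' v
  have hdim : finrank ℂ (Π i, W i) = finrank ℂ V := by
    rw [Module.finrank_pi_fintype]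
    have h1 : ∀ i, LinearMap.trace ℂ V (P i) = (finrank ℂ (W i) : ℂ) := fun i =>
      (LinearMap.IsIdempotentElem.isProj_range _ (hP i)).trace
    have h2 : LinearMap.trace ℂ V (∑ i, P i) = ∑ i, (finrank ℂ (W i) : ℂ) := by
      rw [map_sum]
      simp [h1]
    rw [hsum, LinearMap.trace_one] at h2
    exact_mod_cast h2.symm
  have hinj := (LinearMap.injective_iff_surjective_of_finrank_eq_finrank hdim).2 hsurj
  apply LinearMap.ext
  intro v
  classical
  let w : Π k, W k := fun k => ⟨P k (P j v), LinearMap.mem_range_self _ _⟩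
  let w' : Π k, W k := fun k => if k = j then ⟨P k (P j v), LinearMap.mem_range_self _ _⟩ else 0
  have hww : w = w' := by
    apply hinj
    rw [hΦ, hΦ]
    show ∑ k, P k (P j v) = ∑ k, ((w' k : W k) : V)
    rw [hsum', Finset.sum_eq_single j]
    · have h3 : ((w' j : W j) : V) = P j (P j v) := by
        simp [w']
      rw [h3]
      have := congrArg (fun L : Module.End ℂ V => L v) (hP j).eq
      exact this.symm
    · intro k _ hk
      simp [w', hk]
    · simp
  have h4 := congrFun hww i
  have h5 : ((w i : W i) : V) = ((w' i : W i) : V) := congrArg Subtype.val h4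
  simpa [w, w', hij] using h5

end Cfsg.Agent.Lib.InvolChar
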