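import Mathlib
import Cfsg.Agent.Lib.InvolChar.E4Chars
import Cfsg.Agent.Lib.InvolChar.IdemOrth

/-!
# Involutions with centraliser `E₄` and non-conjugate third involution

`C(x) = {1, x, z, xz}` with `xz ~ x`, `z ≁ x`: the conjugates of `z` commute pairwise and generate a normal
elementary abelian subgroup of order `2` or `4`.
-/

set_option autoImplicit false
set_option linter.unusedSectionVars false
set_option linter.unusedSimpArgs false
set_option linter.unusedVariables false

open scoped ComplexConjugate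
open Module Cfsg Cfsg.Agent.Lib.Char Cfsg.Agent.Lib.Block

namespace Cfsg.Agent.Lib.InvolChar

variable {G : Type*} [Group G] [Fintype G]

private lemma conj_sq {x g : G} (hxx : x * x = 1) : (g * x * g⁻¹) * (g * x * g⁻¹) = 1 := by
  calc g * x * g⁻¹ * (g * x * g⁻¹) = g * (x * x) * g⁻¹ := by group
    _ = 1 := by rw [hxx]; group

private lemma comm_of_sq {u v : G} (hu : u * u = 1) (hv : v * v = 1) (h : u * v * (u * v) = 1) : u * v = v * u := by
  have hu' : u⁻¹ = u := inv_eq_of_mul_eq_one_left hu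
  have hv' : v⁻¹ = v := inv_eq_of_mul_eq_one_left hv
  have h1 : (u * v)⁻¹ = u * v := inv_eq_of_mul_eq_one_left h
  rw [mul_inv_rev, hu', hv'] at h1
  exact h1.symm

open Classical in
/-- The count: each conjugate of `x` commutes with exactly one conjugate of `z`. -/
theorem e4_count {x z : G} (hz1 : z ≠ 1) (hC : ∀ c, c * x = x * c → c = 1 ∨ c = x ∨ c = z ∨ c = x * z)
    (hxz : x * z = z * x) (hy : IsConj x (x * z)) (hnz : ¬ IsConj x z) :
    (Finset.univ.filter (fun a => IsConj z a)).card *
      ((Finset.univ.filter (fun u => IsConj x u)).filter (fun u => u * z = z * u)).card =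
      (Finset.univ.filter (fun u => IsConj x u)).card := by
  set D := Finset.univ.filter (fun u : G => IsConj x u) with hD
  set Z := Finset.univ.filter (fun a : G => IsConj z a) with hZ
  have h := Finset.sum_card_bipartiteAbove_eq_sum_card_bipartiteBelow (s := D) (t := Z) (fun u a : G => u * a = a * u)
  have h1 : ∀ u ∈ D, (Finset.bipartiteAbove (fun u a : G => u * a = a * u) Z u).card = 1 := by
    intro u hu
    obtain ⟨g, rfl⟩ := isConj_iff.1 (Finset.mem_filter.1 hu).2
    refine Finset.card_eq_one.2 ⟨g * z * g⁻¹, ?_⟩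
    ext a
    simp only [Finset.bipartiteAbove, Finset.mem_filter, Finset.mem_singleton, hZ, Finset.mem_univ, true_and]
    constructor
    · rintro ⟨ha, hc⟩
      have h2 : (g⁻¹ * a * g) * x = x * (g⁻¹ * a * g) := by
        have : g * x * g⁻¹ * a = a * (g * x * g⁻¹) := hc
        calc g⁻¹ * a * g * x = g⁻¹ * (a * (g * x * g⁻¹)) * g := by group
          _ = g⁻¹ * (g * x * g⁻¹ * a) * g := by rw [this]
          _ = x * (g⁻¹ * a * g) := by group
      have hae : a = g * (g⁻¹ * a * g) * g⁻¹ := by group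
      rcases hC _ h2 with h3 | h3 | h3 | h3
      · rw [h3] at hae
        rw [hae] at ha
        exfalso
        apply hz1
        simpa using ha
      · exfalso
        rw [h3] at hae
        rw [hae] at ha
        apply hnz
        exact ((isConj_iff.2 ⟨g, rfl⟩).trans ha.symm)
      · rw [hae, h3]
      · exfalso
        rw [h3] at hae
        rw [hae] at ha
        apply hnz
        exact (hy.trans (isConj_iff.2 ⟨g, rfl⟩)).trans ha.symm
    · rintro rfl
      refine ⟨isConj_iff.2 ⟨g, rfl⟩, ?_⟩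
      calc g * x * g⁻¹ * (g * z * g⁻¹) = g * (x * z) * g⁻¹ := by group
        _ = g * (z * x) * g⁻¹ := by rw [hxz]
        _ = g * z * g⁻¹ * (g * x * g⁻¹) := by group
  have h2 : ∀ a ∈ Z, (Finset.bipartiteBelow (fun u a : G => u * a = a * u) D a).card = (D.filter (fun u => u * z = z * u)).card := by
    intro a ha
    obtain ⟨g, rfl⟩ := isConj_iff.1 (Finset.mem_filter.1 ha).2
    symm
    apply Finset.card_equiv (MulAut.conj g).toEquiv
    intro u
    simp only [Finset.bipartiteBelow, Finset.mem_filter, hD, Finset.mem_univ, true_and, MulEquiv.toEquiv_eq_coe,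
      MulEquiv.coe_toEquiv, MulAut.conj_apply]
    constructor
    · rintro ⟨hu, hc⟩
      refine ⟨hu.trans (isConj_iff.2 ⟨g, rfl⟩), ?_⟩
      calc g * u * g⁻¹ * (g * z * g⁻¹) = g * (u * z) * g⁻¹ := by group
        _ = g * (z * u) * g⁻¹ := by rw [hc]
        _ = g * z * g⁻¹ * (g * u * g⁻¹) := by group
    · rintro ⟨hu, hc⟩
      refine ⟨hu.trans (isConj_iff.2 ⟨g, rfl⟩).symm, ?_⟩
      have : g * (u * z) * g⁻¹ = g * (z * u) * g⁻¹ := by
        calc g * (u * z) * g⁻¹ = g * u * g⁻¹ * (g * z * g⁻¹) := by group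
          _ = g * z * g⁻¹ * (g * u * g⁻¹) := hc
          _ = g * (z * u) * g⁻¹ := by group
      exact mul_left_cancel (mul_right_cancel this)
  rw [Finset.sum_congr rfl h1, Finset.sum_congr rfl h2] at h
  simpa [mul_comm] using h.symm

/-- A conjugate `u` of `x` has `u z ~ x` iff it commutes with `z`. -/
theorem e4_mem {x z u : G} (hxx : x * x = 1) (hzz : z * z = 1) (hz1 : z ≠ 1)
    (hC : ∀ c, c * x = x * c → c = 1 ∨ c = x ∨ c = z ∨ c = x * z)
    (hy : IsConj x (x * z)) (hnz : ¬ IsConj x z) (hu : IsConj x u) : IsConj x (u * z) ↔ u * z = z * u := by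
  obtain ⟨g, rfl⟩ := isConj_iff.1 hu
  constructor
  · intro h
    obtain ⟨c, hc⟩ := isConj_iff.1 h
    have h1 : (g * x * g⁻¹ * z) * (g * x * g⁻¹ * z) = 1 := by
      rw [← hc]
      exact conj_sq hxx
    exact comm_of_sq (conj_sq hxx) hzz h1
  · intro h
    have h2 : (g⁻¹ * z * g) * x = x * (g⁻¹ * z * g) := by
      calc g⁻¹ * z * g * x = g⁻¹ * (z * (g * x * g⁻¹)) * g := by group
        _ = g⁻¹ * (g * x * g⁻¹ * z) * g := by rw [h]
        _ = x * (g⁻¹ * z * g) := by group
    have hae : z = g * (g⁻¹ * z * g) * g⁻¹ := by group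
    rcases hC _ h2 with h3 | h3 | h3 | h3
    · exfalso
      rw [h3] at hae
      apply hz1
      simpa using hae
    · exfalso
      rw [h3] at hae
      apply hnz
      rw [hae]
      exact isConj_iff.2 ⟨g, rfl⟩
    · have h5 : g * x * g⁻¹ * z = g * (x * z) * g⁻¹ := by
        nth_rewrite 1 [hae, h3]
        group
      rw [h5]
      exact hy.trans (isConj_iff.2 ⟨g, rfl⟩)
    · exfalso
      rw [h3] at hae
      apply hnz
      rw [hae]
      exact hy.trans (isConj_iff.2 ⟨g, rfl⟩)

open Classical in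
/-- The numerical identity `n (1 + χ z / χ 1) = 2`. -/
theorem e4_numeric {x z : G} (hx : orderOf x = 2) (hz : orderOf z = 2)
    (hxx : x * x = 1) (hzz : z * z = 1) (hz1 : z ≠ 1) (hxz : x * z = z * x)
    (hC : ∀ c, c * x = x * c → c = 1 ∨ c = x ∨ c = z ∨ c = x * z)
    (hy : IsConj x (x * z)) (hnz : ¬ IsConj x z) (τ χ : IrrCharacter G)
    (hτD : ∀ u, IsConj x u → (τ : G → ℂ) u = -1) (hτz : (τ : G → ℂ) z = 1)
    (hτmul : ∀ g h, (τ : G → ℂ) (g * h) = (τ : G → ℂ) g * (τ : G → ℂ) h) (hχx : (χ : G → ℂ) x = 1)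
    (hφ : ∀ g, (1 - (τ : G → ℂ) g) * (1 + (χ : G → ℂ) g) = if IsConj x g then 4 else 0) :
    ((Finset.univ.filter (fun a => IsConj z a)).card : ℂ) * (1 + (χ : G → ℂ) z / (χ : G → ℂ) 1) = 2 := by
  set D := Finset.univ.filter (fun u : G => IsConj x u) with hD
  set Z := Finset.univ.filter (fun a : G => IsConj z a) with hZ
  set c := (D.filter (fun u => u * z = z * u)).card with hc
  have hcount : Z.card * c = D.card := e4_count hz1 hC hxz hy hnz
  have hDpos : D.card ≠ 0 := by
    apply Finset.card_ne_zero.2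
    exact ⟨x, Finset.mem_filter.2 ⟨Finset.mem_univ _, IsConj.refl x⟩⟩
  have hc0 : (c : ℂ) ≠ 0 := by
    have : c ≠ 0 := by
      intro h
      rw [h, mul_zero] at hcount
      exact hDpos hcount.symm
    exact_mod_cast this
  have h1 : ∑ u ∈ D, (1 - (τ : G → ℂ) (u * z)) * (1 + (χ : G → ℂ) (u * z)) = 4 * c := by
    simp only [hφ]
    rw [← Finset.sum_filter]
    have : D.filter (fun u => IsConj x (u * z)) = D.filter (fun u => u * z = z * u) := by
      apply Finset.filter_congr
      intro u hu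
      exact e4_mem hxx hzz hz1 hC hy hnz (Finset.mem_filter.1 hu).2
    rw [this, Finset.sum_const, nsmul_eq_mul]
    ring
  have h2 : ∑ u ∈ D, (1 - (τ : G → ℂ) (u * z)) * (1 + (χ : G → ℂ) (u * z)) =
      2 * D.card + 2 * ∑ u ∈ D, (χ : G → ℂ) (u * z) := by
    have : ∀ u ∈ D, (1 - (τ : G → ℂ) (u * z)) * (1 + (χ : G → ℂ) (u * z)) = 2 + 2 * (χ : G → ℂ) (u * z) := by
      intro u hu
      rw [hτmul, hτD u (Finset.mem_filter.1 hu).2, hτz]
      ring
    rw [Finset.sum_congr rfl this, Finset.sum_add_distrib, ← Finset.mul_sum, Finset.sum_const, nsmul_eq_mul]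
    ring
  have h3 := Cfsg.Agent.Lib.ZStar.sum_conj_mul χ x z
  have h4 : ((Subgroup.centralizer ({x} : Set G)).index : ℂ) = D.card := by
    rw [← card_filter_isConj x]
  rw [h4, hχx] at h3
  rw [h2, h3] at h1
  have hcount' : (D.card : ℂ) = (Z.card : ℂ) * c := by
    rw [← hcount]
    push_cast
    rfl
  rw [hcount'] at h1
  have h5 : (c : ℂ) * (2 * ((Z.card : ℂ) * (1 + (χ : G → ℂ) z / (χ : G → ℂ) 1))) = (c : ℂ) * 4 := by
    linear_combination h1
  have h6 := mul_left_cancel₀ hc0 h5
  linear_combination h6 / 2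

open Classical in
/-- The conjugates of `z` have commuting images. -/
theorem e4_rep {z : G} {m : ℕ} (hzz : z * z = 1) (ρ : Representation ℂ G (Fin m → ℂ)) (hρ : ρ.IsIrreducible)
    (hnum : ((Finset.univ.filter (fun a => IsConj z a)).card : ℂ) * (1 + ρ.character z / ρ.character 1) = 2)
    {a b : G} (ha : IsConj z a) (hb : IsConj z b) : ρ a * ρ b = ρ b * ρ a := by
  by_cases hab : a = b
  · rw [hab]
  set n := (Finset.univ.filter (fun a => IsConj z a)).card with hn
  have hsc := classSum_eq_scalar ρ hρ z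
  have h1 : ρ.character 1 = (finrank ℂ (Fin m → ℂ) : ℂ) := Representation.char_one ρ
  rw [← h1, ← card_filter_isConj z, ← hn] at hsc
  have hscal : (n : ℂ) * ρ.character z / ρ.character 1 = 2 - n := by
    rw [mul_add, mul_one] at hnum
    rw [mul_div_assoc]
    linear_combination hnum
  rw [hscal] at hsc
  let Zt := {a : G // IsConj z a}
  have hsumρ : ∑ a : Zt, ρ a = ((2 - n : ℂ)) • (1 : Module.End ℂ (Fin m → ℂ)) := by
    rw [← hsc]
    rw [← Finset.sum_subtype (Finset.univ.filter (fun a => IsConj z a)) (fun x => by simp) (fun a => ρ a)]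
    rw [Finset.sum_filter]
    refine Finset.sum_congr rfl fun y _ => ?_
    split_ifs <;> simp
  have hcardZt : Fintype.card Zt = n := by
    rw [Fintype.card_subtype]
  let P : Zt → Module.End ℂ (Fin m → ℂ) := fun a => (1 / 2 : ℂ) • (1 + ρ a)
  have hsq : ∀ a : Zt, ρ a * ρ a = 1 := by
    intro a
    obtain ⟨g, hg⟩ := isConj_iff.1 a.2
    have : (a : G) * a = 1 := by
      rw [← hg]
      exact conj_sq hzz
    rw [← map_mul, this, map_one]
  have hP : ∀ a : Zt, IsIdempotentElem (P a) := by
    intro a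
    show (1 / 2 : ℂ) • (1 + ρ a) * ((1 / 2 : ℂ) • (1 + ρ a)) = (1 / 2 : ℂ) • (1 + ρ a)
    rw [smul_mul_smul_comm]
    have : (1 + ρ a) * (1 + ρ a) = (2 : ℂ) • (1 + ρ a) := by
      rw [add_mul, mul_add, mul_add, hsq, two_smul]
      simp only [one_mul, mul_one]
      abel
    rw [this, smul_smul]
    norm_num
  have hsumP : ∑ a : Zt, P a = 1 := by
    show ∑ a : Zt, (1 / 2 : ℂ) • (1 + ρ a) = 1
    rw [← Finset.smul_sum, Finset.sum_add_distrib, hsumρ, Finset.sum_const, Finset.card_univ, hcardZt]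
    rw [← Nat.cast_smul_eq_nsmul ℂ, ← add_smul, smul_smul]
    have : (1 / 2 : ℂ) * ((n : ℂ) + (2 - n)) = 1 := by ring
    rw [this, one_smul]
  have hne : (⟨a, ha⟩ : Zt) ≠ ⟨b, hb⟩ := fun h => hab (congrArg Subtype.val h)
  have h2 := idempotents_mul_eq_zero P hP hsumP hne
  have h3 := idempotents_mul_eq_zero P hP hsumP hne.symm
  have key : ∀ A B : Module.End ℂ (Fin m → ℂ), (1 / 2 : ℂ) • (1 + A) * ((1 / 2 : ℂ) • (1 + B)) = 0 → (1 + A) * (1 + B) = 0 := by
    intro A B h
    rw [smul_mul_smul_comm] at h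
    exact (smul_eq_zero.1 h).resolve_left (by norm_num)
  have h4 := key _ _ h2
  have h5 := key _ _ h3
  have h6 : ρ a * ρ b = -1 - ρ a - ρ b := by
    have : (1 + ρ a) * (1 + ρ b) = 1 + ρ a + ρ b + ρ a * ρ b := by
      rw [add_mul, mul_add, mul_add]
      simp only [one_mul, mul_one]
      abel
    rw [this] at h4
    calc ρ a * ρ b = (1 + ρ a + ρ b + ρ a * ρ b) - 1 - ρ a - ρ b := by abel
      _ = -1 - ρ a - ρ b := by rw [h4]; abel
  have h7 : ρ b * ρ a = -1 - ρ a - ρ b := by
    have : (1 + ρ b) * (1 + ρ a) = 1 + ρ a + ρ b + ρ b * ρ a := by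
      rw [add_mul, mul_add, mul_add]
      simp only [one_mul, mul_one]
      abel
    rw [this] at h5
    calc ρ b * ρ a = (1 + ρ a + ρ b + ρ b * ρ a) - 1 - ρ a - ρ b := by abel
      _ = -1 - ρ a - ρ b := by rw [h5]; abel
  rw [h6, h7]

/-- **The normal four-group.** -/
theorem e4_caseB {x z : G} (hx : orderOf x = 2) (hz : orderOf z = 2) (hxz : x * z = z * x)
    (hC4 : Nat.card (Subgroup.centralizer ({x} : Set G)) = 4)
    (hC : ∀ c, c * x = x * c → c = 1 ∨ c = x ∨ c = z ∨ c = x * z)
    (hy : IsConj x (x * z)) (hnz : ¬ IsConj x z) :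
    ∃ E : Subgroup G, E.Normal ∧ Cfsg.IsElementaryAbelian 2 E ∧ (Nat.card E = 2 ∨ Nat.card E = 4) := by
  classical
  have hxx : x * x = 1 := by rw [← pow_two, ← hx, pow_orderOf_eq_one]
  have hzz : z * z = 1 := by rw [← pow_two, ← hz, pow_orderOf_eq_one]
  have hx1 : x ≠ 1 := by
    intro e
    rw [e, orderOf_one] at hx
    omega
  have hz1 : z ≠ 1 := by
    intro e
    rw [e, orderOf_one] at hz
    omega
  have hDinv : ∀ u, IsConj x u → u * u = 1 := by
    intro u hu
    obtain ⟨g, rfl⟩ := isConj_iff.1 hu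
    exact conj_sq hxx
  have hodd : ∀ u, IsConj x u → ¬ IsConj x (u * x) := by
    intro u hu huz
    have hcomm := comm_of_sq (hDinv u hu) hxx (hDinv _ huz)
    rcases hC u hcomm with rfl | rfl | rfl | rfl
    · rw [isConj_one_left] at hu
      exact hx1 hu
    · rw [hxx, isConj_one_left] at huz
      exact hx1 huz
    · exact hnz hu
    · have : x * z * x = z := by
        calc x * z * x = x * (z * x) := by group
          _ = x * (x * z) := by rw [hxz]
          _ = (x * x) * z := by group
          _ = z := by rw [hxx, one_mul]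
      rw [this] at huz
      exact hnz huz
  obtain ⟨τ, χ, hτmul, hτx, hχx, hφ⟩ := e4_chars hx hC4 hodd
  have hτc := IsIrrCharacter.isCharacter τ.2
  have hχc := IsIrrCharacter.isCharacter χ.2
  have hτD : ∀ u, IsConj x u → (τ : G → ℂ) u = -1 := fun u hu => by
    rw [← IsCharacter.map_isConj hτc hu, hτx]
  have hτz : (τ : G → ℂ) z = 1 := by
    have h1 := hτD _ hy
    rw [hτmul, hτx] at h1
    linear_combination -h1
  have hτZ : ∀ a, IsConj z a → (τ : G → ℂ) a = 1 := fun a ha => by
    rw [← IsCharacter.map_isConj hτc ha, hτz]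
  have hτ1 : (τ : G → ℂ) 1 = 1 := by
    have h1 := hτmul 1 x
    rw [one_mul, hτx] at h1
    linear_combination h1
  have hnum := e4_numeric hx hz hxx hzz hz1 hxz hC hy hnz τ χ hτD hτz hτmul hχx hφ
  set n := (Finset.univ.filter (fun a => IsConj z a)).card with hn
  -- the central case
  by_cases hn1 : n = 1
  · have hZ : ∀ a, IsConj z a → a = z := by
      intro a ha
      have h1 : z ∈ Finset.univ.filter (fun a => IsConj z a) := Finset.mem_filter.2 ⟨Finset.mem_univ _, IsConj.refl z⟩
      have h2 : a ∈ Finset.univ.filter (fun a => IsConj z a) := Finset.mem_filter.2 ⟨Finset.mem_univ _, ha⟩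
      exact Finset.card_le_one.1 (by rw [← hn, hn1]) a h2 z h1
    refine ⟨Subgroup.zpowers z, ?_, ?_, Or.inl (by rw [Nat.card_zpowers, hz])⟩
    · constructor
      rintro _ ⟨k, rfl⟩ g
      refine ⟨k, ?_⟩
      have : g * z * g⁻¹ = z := hZ _ (isConj_iff.2 ⟨g, rfl⟩)
      show z ^ k = g * z ^ k * g⁻¹
      rw [← conj_zpow, this]
    · refine ⟨⟨⟨fun a b => ?_⟩⟩, ?_⟩
      · obtain ⟨i, hi⟩ := a.2
        obtain ⟨j, hj⟩ := b.2
        apply Subtype.ext
        show (a : G) * b = b * a
        rw [← hi, ← hj]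
        exact (Commute.zpow_zpow_self z i j).eq
      · rintro _ ⟨k, rfl⟩
        show (z ^ k) ^ 2 = 1
        rw [← zpow_natCast, ← zpow_mul, mul_comm, zpow_mul]
        have : z ^ ((2 : ℕ) : ℤ) = 1 := by
          rw [zpow_natCast, ← hz, pow_orderOf_eq_one]
        rw [this, one_zpow]
  -- the representation
  obtain ⟨χf, hχ⟩ := χ
  obtain ⟨m, ρ, hρ, hρχ⟩ := id hχ
  simp only at hχx hφ hnum hχc
  subst hρχ
  have hch1 : ρ.character 1 = (m : ℂ) := by
    rw [Representation.char_one]
    simp
  have hm0 : (m : ℂ) ≠ 0 := by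
    have := finrank_pos_of_irr hρ
    simp only [Module.finrank_fin_fun] at this
    exact_mod_cast this.ne'
  -- `z` acts nontrivially
  have hzN : ρ z ≠ 1 := by
    intro h
    have h1 : ρ.character z = (m : ℂ) := by
      rw [← hch1]
      unfold Representation.character
      rw [h, map_one ρ]
    rw [h1, hch1, div_self hm0] at hnum
    apply hn1
    have : ((n : ℂ)) * 2 = 2 := by linear_combination hnum
    have h2 : (n : ℂ) = 1 := by linear_combination this / 2
    exact_mod_cast h2
  have hm1 : m ≠ 1 := by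
    rintro rfl
    have hone : ρ.character 1 = 1 := by simpa using hch1
    obtain ⟨lam, hlam⟩ := exists_hom_of_character_one hχc hone
    have h1 : (lam z : ℂ) ^ 2 = 1 := by
      rw [← Units.val_pow_eq_pow_val, ← map_pow, pow_two, hzz, map_one]
      rfl
    have h2 : (lam z : ℂ) = 1 ∨ (lam z : ℂ) = -1 := mul_self_eq_one_iff.1 (by rw [← pow_two]; exact h1)
    have h3 : ρ.character z = (lam z : ℂ) := congrFun hlam z
    rw [h3, hone, div_one] at hnum
    rcases h2 with h2 | h2
    · rw [h2] at hnum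
      apply hn1
      have h4 : (n : ℂ) = 1 := by linear_combination hnum / 2
      exact_mod_cast h4
    · rw [h2] at hnum
      norm_num at hnum
  -- the kernel
  have hconjN : ∀ g h : G, ρ g = 1 → ρ (h * g * h⁻¹) = 1 := by
    intro g h hg
    rw [map_mul, map_mul, hg, mul_one, ← map_mul, mul_inv_cancel, map_one]
  have hτN : ∀ g, ρ g = 1 → (τ : G → ℂ) g = 1 := by
    intro g hg
    have h1 : ρ.character g = (m : ℂ) := by
      rw [← hch1]
      unfold Representation.character
      rw [hg, map_one ρ]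
    have h2 := hφ g
    rw [h1] at h2
    by_cases hc : IsConj x g
    · exfalso
      have h3 : ρ.character g = 1 := by
        rw [← IsCharacter.map_isConj hχc hc, hχx]
      rw [h1] at h3
      apply hm1
      exact_mod_cast h3
    · rw [if_neg hc] at h2
      have h4 : (1 : ℂ) + m ≠ 0 := by
        have : ((1 + m : ℕ) : ℂ) ≠ 0 := by exact_mod_cast (by omega : 1 + m ≠ 0)
        simpa using this
      have h5 := (mul_eq_zero.1 h2).resolve_right h4
      linear_combination -h5
  have hxN : ∀ g, ρ g = 1 → IsConj x (x * g) := by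
    intro g hg
    by_contra hc
    have h2 := hφ (x * g)
    rw [if_neg hc, hτmul, hτx, hτN g hg] at h2
    have h3 : ρ.character (x * g) = ρ.character x := by
      unfold Representation.character
      rw [map_mul, hg, mul_one]
    rw [h3, hχx] at h2
    norm_num at h2
  have hinvN : ∀ g, ρ g = 1 → (x * g) * (x * g) = 1 := fun g hg => hDinv _ (hxN g hg)
  have hinvD : ∀ u g, IsConj x u → ρ g = 1 → (u * g) * (u * g) = 1 := by
    intro u g hu hg
    obtain ⟨h, rfl⟩ := isConj_iff.1 hu
    have h1 := hinvN _ (hconjN g h⁻¹ hg)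
    calc h * x * h⁻¹ * g * (h * x * h⁻¹ * g)
        = h * ((x * (h⁻¹ * g * h⁻¹⁻¹)) * (x * (h⁻¹ * g * h⁻¹⁻¹))) * h⁻¹ := by group
      _ = 1 := by rw [h1]; group
  -- `z` centralises the kernel
  have hcenz : ∀ g, ρ g = 1 → z * g = g * z := by
    intro g hg
    have hginv : ρ g⁻¹ = 1 := by
      have h0 : ρ g⁻¹ * ρ g = 1 := by rw [← map_mul, inv_mul_cancel, map_one]
      rwa [hg, mul_one] at h0
    have h1 := hinvD (x * z) g hy hg
    have h2 := hinvD x g⁻¹ (IsConj.refl x) hginv
    have hyy : (x * z) * (x * z) = 1 := hDinv _ hy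
    have e1 : (x * z) * g = g⁻¹ * (x * z) := by
      have : (x * z * g)⁻¹ = x * z * g := inv_eq_of_mul_eq_one_left h1
      have h3 : (x * z)⁻¹ = x * z := inv_eq_of_mul_eq_one_left hyy
      rw [mul_inv_rev, h3] at this
      exact this.symm
    have e2 : x * g⁻¹ = g * x := by
      have : (x * g⁻¹)⁻¹ = x * g⁻¹ := inv_eq_of_mul_eq_one_left h2
      have h3 : x⁻¹ = x := inv_eq_of_mul_eq_one_left hxx
      rw [mul_inv_rev, inv_inv, h3] at this
      exact this.symm
    calc z * g = x * ((x * z) * g) := by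
          rw [← mul_assoc, ← mul_assoc, hxx, one_mul]
      _ = x * (g⁻¹ * (x * z)) := by rw [e1]
      _ = (x * g⁻¹) * (x * z) := by group
      _ = (g * x) * (x * z) := by rw [e2]
      _ = g * (x * x) * z := by group
      _ = g * z := by rw [hxx, mul_one]
  have hcenZ : ∀ a g, IsConj z a → ρ g = 1 → a * g = g * a := by
    intro a g ha hg
    obtain ⟨h, rfl⟩ := isConj_iff.1 ha
    have h1 := hcenz _ (hconjN g h⁻¹ hg)
    calc h * z * h⁻¹ * g = h * (z * (h⁻¹ * g * h⁻¹⁻¹)) * h⁻¹ := by group
      _ = h * ((h⁻¹ * g * h⁻¹⁻¹) * z) * h⁻¹ := by rw [h1]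
      _ = g * (h * z * h⁻¹) := by group
  -- involutions of the kernel
  have hinvol : ∀ c, ρ c = 1 → c * c = 1 → c = 1 := by
    intro c hc hcc
    have h1 := comm_of_sq hxx hcc (hinvN c hc)
    rcases hC c h1.symm with h | h | h | h
    · exact h
    · exfalso
      have h2 := hτN c hc
      rw [h, hτx] at h2
      norm_num at h2
    · exfalso
      exact hzN (h ▸ hc)
    · exfalso
      have h2 := hτN c hc
      rw [h, hτD _ hy] at h2
      norm_num at h2
  -- the conjugates of `z` commute
  have hZinv : ∀ a, IsConj z a → a * a = 1 := by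
    intro a ha
    obtain ⟨g, rfl⟩ := isConj_iff.1 ha
    exact conj_sq hzz
  have hcomm : ∀ a b, IsConj z a → IsConj z b → a * b = b * a := by
    intro a b ha hb
    have haa := hZinv a ha
    have hbb := hZinv b hb
    have h1 := e4_rep hzz ρ hρ hnum ha hb
    set c := a * b * (a * b) with hc
    have hc1 : ρ c = 1 := by
      rw [hc, map_mul, map_mul]
      calc ρ a * ρ b * (ρ a * ρ b) = ρ a * (ρ b * ρ a) * ρ b := by
            simp only [mul_assoc]
        _ = ρ a * (ρ a * ρ b) * ρ b := by rw [h1]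
        _ = ρ (a * a) * ρ (b * b) := by
            simp only [map_mul, mul_assoc]
        _ = 1 := by rw [haa, hbb, map_one, one_mul]
    have hc2 := hcenZ a c ha hc1
    -- `a` inverts `c`
    have ainv : a⁻¹ = a := inv_eq_of_mul_eq_one_left haa
    have binv : b⁻¹ = b := inv_eq_of_mul_eq_one_left hbb
    have e1 : a * c * a = b * a * (b * a) := by
      calc a * c * a = (a * a) * (b * a * (b * a)) := by rw [hc]; group
        _ = b * a * (b * a) := by rw [haa, one_mul]
    have e2 : c⁻¹ = b * a * (b * a) := by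
      rw [hc]
      simp only [mul_inv_rev, ainv, binv]
    have e3 : a * c * a = c := by
      rw [hc2, mul_assoc, haa, mul_one]
    have hc3 : c * c = 1 := by
      have h5 : c⁻¹ = c := by rw [e2, ← e1, e3]
      calc c * c = c * c⁻¹ := by rw [h5]
        _ = 1 := mul_inv_cancel c
    have hc4 := hinvol c hc1 hc3
    exact comm_of_sq haa hbb hc4
  -- the group `E`
  set Zs : Set G := Group.conjugatesOfSet ({z} : Set G) with hZs
  have hZmem : ∀ a, a ∈ Zs ↔ IsConj z a := by
    intro a
    simp [hZs, Group.mem_conjugatesOfSet_iff]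
  set E := Subgroup.normalClosure ({z} : Set G) with hE
  have hEdef : E = Subgroup.closure Zs := rfl
  have hEn : E.Normal := Subgroup.normalClosure_normal
  have hzE : z ∈ E := Subgroup.subset_normalClosure (Set.mem_singleton z)
  have hE1 : E ≤ Subgroup.centralizer Zs := by
    rw [hEdef, Subgroup.closure_le]
    intro a ha
    rw [SetLike.mem_coe, Subgroup.mem_centralizer_iff]
    intro b hb
    exact hcomm b a ((hZmem b).1 hb) ((hZmem a).1 ha)
  have hE2 : ∀ w ∈ E, ∀ v ∈ E, w * v = v * w := by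
    intro w hw v hv
    have h1 : E ≤ Subgroup.centralizer ({w} : Set G) := by
      rw [hEdef, Subgroup.closure_le]
      intro a ha
      rw [SetLike.mem_coe, Subgroup.mem_centralizer_singleton_iff]
      exact Subgroup.mem_centralizer_iff.1 (hE1 hw) a ha
    exact (Subgroup.mem_centralizer_singleton_iff.1 (h1 hv)).symm
  have hsq : ∀ w ∈ E, w * w = 1 := by
    intro w hw
    have hw' : w ∈ Subgroup.closure Zs := hw
    induction hw' using Subgroup.closure_induction with
    | mem a ha => exact hZinv a ((hZmem a).1 ha)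
    | one => simp
    | mul u v hu hv ihu ihv =>
      have h1 := hE2 u hu v hv
      have ihu' := ihu hu
      have ihv' := ihv hv
      calc u * v * (u * v) = u * (v * u) * v := by group
        _ = u * (u * v) * v := by rw [h1]
        _ = (u * u) * (v * v) := by group
        _ = 1 := by rw [ihu', ihv', one_mul]
    | inv u hu ihu =>
      have ihu' := ihu hu
      rw [← mul_inv_rev, ihu', inv_one]
  have hτE : ∀ w ∈ E, (τ : G → ℂ) w = 1 := by
    intro w hw
    have hw' : w ∈ Subgroup.closure Zs := hw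
    induction hw' using Subgroup.closure_induction with
    | mem a ha => exact hτZ a ((hZmem a).1 ha)
    | one => exact hτ1
    | mul u v hu hv ihu ihv => rw [hτmul, ihu hu, ihv hv, one_mul]
    | inv u hu ihu =>
      have h1 : u⁻¹ = u := inv_eq_of_mul_eq_one_left (hsq u hu)
      rw [h1]
      exact ihu hu
  have hCE : ∀ w ∈ E, w * x = x * w → w = 1 ∨ w = z := by
    intro w hw hc
    rcases hC w hc with h | h | h | h
    · exact Or.inl h
    · exfalso
      have h2 := hτE w hw
      rw [h, hτx] at h2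
      norm_num at h2
    · exact Or.inr h
    · exfalso
      have h2 := hτE w hw
      rw [h, hτD _ hy] at h2
      norm_num at h2
  -- the square map
  let f : E →* E := MonoidHom.mk' (fun w => ⟨(w : G) * (x * (w : G) * x⁻¹), E.mul_mem w.2 (hEn.conj_mem _ w.2 x)⟩) (by
    intro a b
    apply Subtype.ext
    have h1 := hE2 b b.2 (x * a * x⁻¹) (hEn.conj_mem _ a.2 x)
    show (a : G) * b * (x * ((a : G) * b) * x⁻¹) = (a : G) * (x * a * x⁻¹) * ((b : G) * (x * b * x⁻¹))
    calc (a : G) * b * (x * ((a : G) * b) * x⁻¹) = a * (b * (x * a * x⁻¹)) * (x * b * x⁻¹) := by group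
      _ = a * ((x * a * x⁻¹) * b) * (x * b * x⁻¹) := by rw [h1]
      _ = _ := by group)
  have hxinv : x⁻¹ = x := inv_eq_of_mul_eq_one_left hxx
  have hK : ∀ k ∈ f.ker, ((k : E) : G) = 1 ∨ ((k : E) : G) = z := by
    intro k hk
    have h1 : (k : G) * (x * k * x⁻¹) = 1 := congrArg Subtype.val (MonoidHom.mem_ker.1 hk)
    have h2 : x * (k : G) * x⁻¹ = k := by
      have h3 : (k : G)⁻¹ = k := inv_eq_of_mul_eq_one_left (hsq k k.2)
      have h4 := inv_eq_of_mul_eq_one_right h1
      rw [h3] at h4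
      exact h4.symm
    apply hCE k k.2
    exact (mul_inv_eq_iff_eq_mul.1 h2).symm
  have hR : ∀ v ∈ f.range, ((v : E) : G) = 1 ∨ ((v : E) : G) = z := by
    rintro v ⟨w, rfl⟩
    apply hCE _ (f w).2
    show (w : G) * (x * w * x⁻¹) * x = x * ((w : G) * (x * w * x⁻¹))
    have h1 := hE2 w w.2 (x * w * x⁻¹) (hEn.conj_mem _ w.2 x)
    rw [hxinv] at h1 ⊢
    calc (w : G) * (x * w * x) * x = w * x * w * (x * x) := by group
      _ = w * x * w := by rw [hxx, mul_one]
      _ = (x * x) * w * x * w := by rw [hxx, one_mul]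
      _ = x * ((x * w * x) * w) := by group
      _ = x * ((w : G) * (x * w * x)) := by rw [h1]
  have hcardle : ∀ K : Subgroup E, (∀ k ∈ K, ((k : E) : G) = 1 ∨ ((k : E) : G) = z) → Nat.card K ≤ 2 := by
    intro K hK'
    have hinj : Function.Injective (fun k : K => (⟨((k : E) : G), by
        have := hK' k k.2
        simpa using this⟩ : (({1, z} : Finset G) : Set G))) := by
      intro a b h
      have h1 := congrArg Subtype.val h
      exact Subtype.ext (Subtype.ext h1)
    have h2 := Nat.card_le_card_of_injective _ hinj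
    have h3 : Nat.card (({1, z} : Finset G) : Set G) = ({1, z} : Finset G).card := by
      simp
    rw [h3] at h2
    exact h2.trans Finset.card_le_two
  have hcardE : Nat.card E = Nat.card f.ker * Nat.card f.range := by
    rw [← Subgroup.index_ker, Subgroup.card_mul_index]
  have hle4 : Nat.card E ≤ 4 := by
    rw [hcardE]
    exact Nat.mul_le_mul (hcardle _ hK) (hcardle _ hR)
  have hp : IsPGroup 2 E := by
    intro g
    refine ⟨1, ?_⟩
    apply Subtype.ext
    rw [pow_one, pow_two]
    exact hsq g g.2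
  obtain ⟨k, hk⟩ := hp.exists_card_eq
  have hnt : 1 < Nat.card E := by
    haveI : Nontrivial E := ⟨⟨⟨z, hzE⟩, 1, fun h => hz1 (congrArg Subtype.val h)⟩⟩
    exact Finite.one_lt_card
  refine ⟨E, hEn, ⟨⟨⟨fun a b => Subtype.ext (hE2 a a.2 b b.2)⟩⟩, fun a ha => by rw [pow_two]; exact hsq a ha⟩, ?_⟩
  rw [hk] at hle4 hnt ⊢
  match k, hle4, hnt with
  | 0, _, hnt => simp at hnt
  | 1, _, _ => left; rfl
  | 2, _, _ => right; rfl
  | (k + 3), hle4, _ =>
    exfalso
    have : 8 ≤ 2 ^ (k + 3) := by
      rw [pow_add]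
      have := Nat.one_le_two_pow (n := k)
      omega
    omega

end Cfsg.Agent.Lib.InvolChar
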