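import Mathlib
import Cfsg.Agent.Lib.FF.KleinFormula
import Cfsg.Agent.Lib.Char.DefectZero
import Cfsg.Agent.Lib.Invol.Simple
import Cfsg.Agent.Lib.Invol.Klein

/-!
# Simple groups with a four-group as Sylow subgroup, self-centralising up to the odd part

If `G` is simple with a Klein four Sylow `2`-subgroup `P`, all involutions are conjugate and
`C(x) = C(P)` for an involution `x ∈ P`, then `G ≃* A₅`.
-/

set_option autoImplicit false
set_option linter.unusedSectionVars false
set_option linter.unusedSimpArgs false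
set_option linter.unusedVariables false

open Cfsg Cfsg.Agent.Lib.Char Cfsg.Agent.Lib.Block

namespace Cfsg.Agent.Lib.InvolChar

/-- A simple group with a subgroup of index five and order at least sixty is `A₅`. -/
theorem iso_A5_of_index_five {G : Type*} [Group G] [Finite G] [IsSimpleGroup G] (H : Subgroup G)
    (hH : H.index = 5) (hcard : 60 ≤ Nat.card G) : Nonempty (G ≃* alternatingGroup (Fin 5)) := by
  classical
  have hne : H ≠ ⊤ := by
    intro h
    rw [h, Subgroup.index_top] at hH
    omega
  have hinj := Cfsg.Agent.Lib.Invol.toPermHom_injective_of_simple hne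
  haveI := Fintype.ofFinite (G ⧸ H)
  have hc5 : Fintype.card (G ⧸ H) = 5 := by
    rw [← Nat.card_eq_fintype_card, ← Subgroup.index_eq_card, hH]
  have e : (G ⧸ H) ≃ Fin 5 := Fintype.equivFinOfCardEq hc5
  let φ : G →* Equiv.Perm (Fin 5) := (Equiv.permCongrHom e).toMonoidHom.comp (MulAction.toPermHom G (G ⧸ H))
  have hφinj : Function.Injective φ := (Equiv.permCongrHom e).injective.comp hinj
  have hsign : ∀ g, φ g ∈ alternatingGroup (Fin 5) := fun g =>
    Equiv.Perm.mem_alternatingGroup.2 (Cfsg.Agent.Lib.Invol.sign_eq_one_of_simple (by omega) φ g)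
  let f : G →* alternatingGroup (Fin 5) := φ.codRestrict _ hsign
  have hfinj : Function.Injective f := fun a b h => hφinj (congrArg Subtype.val h)
  have hA : Nat.card (alternatingGroup (Fin 5)) = 60 := by
    rw [Nat.card_eq_fintype_card]
    decide
  refine ⟨MulEquiv.ofBijective f ?_⟩
  apply (Nat.bijective_iff_injective_and_card f).2 ⟨hfinj, ?_⟩
  have := Nat.card_le_card_of_injective f hfinj
  omega

/-- A nontrivial irreducible character of a simple non-commutative group has degree different from `1`. -/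
theorem charDegree_ne_one_of_simple {G : Type*} [Group G] [Fintype G] [IsSimpleGroup G]
    (hnc : ∃ a b : G, a * b ≠ b * a) (χ : IrrCharacter G) (h : (χ : G → ℂ) ≠ fun _ => 1) :
    charDegree (χ : G → ℂ) ≠ 1 := by
  intro hd
  obtain ⟨χ, hχ⟩ := χ
  obtain ⟨n, ρ, hρ, rfl⟩ := id hχ
  simp only at h hd
  have hn : n = 1 := by
    rw [charDegree_natCast (Representation.char_one ρ)] at hd
    simpa using hd
  subst hn
  have hcomm : ∀ a b : G, ρ a * ρ b = ρ b * ρ a := by
    intro a b
    have key : ∀ (T : Module.End ℂ (Fin 1 → ℂ)) (w : Fin 1 → ℂ), T w = (T (fun _ => 1) 0) • w := by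
      intro T w
      have h0 : w = w 0 • (fun _ => (1 : ℂ)) := by
        funext j
        have : j = 0 := Subsingleton.elim _ _
        simp [this]
      have h1 : T w = w 0 • T (fun _ => 1) := by
        conv_lhs => rw [h0]
        rw [map_smul]
      funext j
      have e : j = 0 := Subsingleton.elim _ _
      subst e
      rw [h1]
      simp only [Pi.smul_apply, smul_eq_mul]
      ring
    apply LinearMap.ext
    intro w
    rw [Module.End.mul_apply, Module.End.mul_apply, key (ρ a) ((ρ b) w), key (ρ b) ((ρ a) w), key (ρ a) w, key (ρ b) w]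
    exact smul_comm _ _ _
  have hker := IsSimpleGroup.eq_bot_or_eq_top_of_normal (MonoidHom.ker ρ) inferInstance
  rcases hker with hker | hker
  · obtain ⟨a, b, hab⟩ := hnc
    apply hab
    have hinj := (MonoidHom.ker_eq_bot_iff ρ).1 hker
    apply hinj
    rw [map_mul, map_mul, hcomm]
  · apply h
    funext g
    have : g ∈ MonoidHom.ker ρ := by rw [hker]; trivial
    have h1 : ρ g = 1 := this
    have h2 : ρ.character g = ρ.character 1 := by
      have h3 : ρ 1 = 1 := map_one ρ
      unfold Representation.character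
      rw [h1, h3]
    rw [h2, Representation.char_one]
    simp

/-- The integer arithmetic of the order formula. -/
theorem klein_arith (a x₁ x₂ x₃ ε : ℤ) (hε : ε = 1 ∨ ε = -1) (hx2 : (4 : ℤ) ∣ x₂ - ε) (hx3 : (4 : ℤ) ∣ x₃ + 1)
    (p1 : 0 < x₁) (p2 : 0 < x₂) (p3 : 0 < x₃) (ha : 15 ≤ a)
    (hmain : a * (x₁ * x₂ * x₃ + 1 * x₂ * x₃ + ε * x₁ * x₃ + (-1) * x₁ * x₂) = 8 * (1 : ℤ) ^ 2 * (x₁ * x₂ * x₃))
    (hrel : 1 + 1 * x₁ + ε * x₂ + (-1) * x₃ = 0) : a = 15 := by
  rcases hε with rfl | rfl
  · exfalso
    have h3 : x₃ = 1 + x₁ + x₂ := by linarith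
    have hP : 0 < x₁ * x₂ * x₃ := by positivity
    have h23 : 0 < x₂ * x₃ := by positivity
    have h13 : 0 ≤ x₁ * (x₃ - x₂) := by
      apply mul_nonneg p1.le
      linarith
    set P := x₁ * x₂ * x₃ with hPdef
    have hD : 0 < x₂ * x₃ + x₁ * (x₃ - x₂) := by linarith
    have hmain' : a * (P + (x₂ * x₃ + x₁ * (x₃ - x₂))) = 8 * P := by
      rw [hPdef]
      linear_combination hmain
    nlinarith
  · have h1 : x₁ = x₂ + x₃ - 1 := by linarith
    have hq : x₃ = 3 ∨ 7 ≤ x₃ := by omega
    have hp : x₂ = 3 ∨ 7 ≤ x₂ := by omega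
    have hp3 : 3 ≤ x₂ := by omega
    have hq3 : 3 ≤ x₃ := by omega
    by_cases hcase : x₂ = 3 ∧ x₃ = 3
    · obtain ⟨rfl, rfl⟩ := hcase
      subst h1
      norm_num at hmain
      omega
    · exfalso
      have hs : 10 ≤ x₂ + x₃ := by omega
      set s := x₂ + x₃ with hsdef
      have hpq : 3 * s - 9 ≤ x₂ * x₃ := by
        rw [hsdef]
        nlinarith [mul_nonneg (sub_nonneg.2 hp3) (sub_nonneg.2 hq3)]
      have hk : 0 < (7 * s + 8) * (x₂ * x₃) - 15 * s * (s - 1) := by
        have h5 : (7 * s + 8) * (3 * s - 9) ≤ (7 * s + 8) * (x₂ * x₃) :=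
          mul_le_mul_of_nonneg_left hpq (by linarith)
        nlinarith
      have hW : a * (x₁ * (x₂ * x₃) + x₂ * x₃ - x₁ * s) = 8 * (x₁ * (x₂ * x₃)) := by
        rw [hsdef]
        linear_combination hmain
      have hQ : 0 < x₁ * (x₂ * x₃) := by positivity
      have hWpos : 0 < x₁ * (x₂ * x₃) + x₂ * x₃ - x₁ * s := by
        by_contra hneg
        push Not at hneg
        have : a * (x₁ * (x₂ * x₃) + x₂ * x₃ - x₁ * s) ≤ 0 :=
          mul_nonpos_of_nonneg_of_nonpos (by linarith) hneg
        rw [hW] at this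
        linarith
      have hkey : 8 * (x₁ * (x₂ * x₃)) < 15 * (x₁ * (x₂ * x₃) + x₂ * x₃ - x₁ * s) := by
        rw [h1]
        nlinarith
      have : 15 * (x₁ * (x₂ * x₃) + x₂ * x₃ - x₁ * s) ≤ a * (x₁ * (x₂ * x₃) + x₂ * x₃ - x₁ * s) :=
        mul_le_mul_of_nonneg_right ha hWpos.le
      linarith

/-- The index of a centraliser in a subgroup is the size of the orbit. -/
theorem relIndex_centralizer_eq_ncard {G : Type*} [Group G] [Finite G] (H : Subgroup G) (x : G) (T : Set G)
    (hT : ∀ t, t ∈ T ↔ ∃ h ∈ H, h * x * h⁻¹ = t) :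
    (Subgroup.centralizer ({x} : Set G)).relIndex H = T.ncard := by
  letI : MulAction H G := MulAction.compHom G ((MulAut.conj : G →* MulAut G).comp H.subtype)
  have hact : ∀ (h : H) (g : G), h • g = (h : G) * g * (h : G)⁻¹ := fun h g => rfl
  have h1 := MulAction.index_stabilizer H x
  have h2 : MulAction.stabilizer H x = (Subgroup.centralizer ({x} : Set G)).subgroupOf H := by
    ext h
    rw [MulAction.mem_stabilizer_iff, hact, Subgroup.mem_subgroupOf, Subgroup.mem_centralizer_singleton_iff]
    rw [mul_inv_eq_iff_eq_mul]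
  have h3 : MulAction.orbit H x = T := by
    ext t
    rw [hT, MulAction.mem_orbit_iff]
    constructor
    · rintro ⟨h, rfl⟩
      exact ⟨h, h.2, (hact h x).symm⟩
    · rintro ⟨h, hh, rfl⟩
      exact ⟨⟨h, hh⟩, rfl⟩
  rw [h2, h3] at h1
  exact h1

/-- A simple group with a four-group `P` as Sylow `2`-subgroup, all involutions conjugate and
`C(x) = C(P)` for an involution `x ∈ P` is `A₅`. -/
theorem klein_simple_iso_A5 {G : Type*} [Group G] [Fintype G] [IsSimpleGroup G] (P : Sylow 2 G)
    (hP : IsKleinFour (P : Subgroup G)) (hone : ∀ s t : G, orderOf s = 2 → orderOf t = 2 → IsConj s t)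
    (x : G) (hxP : x ∈ (P : Subgroup G)) (hx : orderOf x = 2)
    (hC : Subgroup.centralizer ((P : Subgroup G) : Set G) = Subgroup.centralizer ({x} : Set G)) :
    Nonempty (G ≃* alternatingGroup (Fin 5)) := by
  classical
  have hx1 : x ≠ 1 := by
    intro e
    rw [e, orderOf_one] at hx
    omega
  set C := Subgroup.centralizer ({x} : Set G) with hCdef
  set H := Subgroup.normalizer ((P : Subgroup G) : Set G) with hHdef
  have hcard4 : Nat.card (P : Subgroup G) = 4 := IsKleinFour.card_four
  have hCH : C ≤ H := by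
    intro g hg
    rw [← hC] at hg
    rw [hHdef, Subgroup.mem_normalizer_iff]
    intro h
    have hcg : ∀ t ∈ (P : Subgroup G), t * g = g * t := fun t ht =>
      Subgroup.mem_centralizer_iff.1 hg t ht
    constructor
    · intro hh
      have : g * h * g⁻¹ = h := by
        rw [← hcg h hh]
        group
      rwa [this]
    · intro hh
      have h1 := hcg _ hh
      have : h = g * h * g⁻¹ := by
        have h2 : g * h * g⁻¹ * g = g * (g * h * g⁻¹) := h1
        have h3 : g * h = g * (g * h * g⁻¹) := by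
          rw [← h2]
          group
        exact mul_left_cancel h3
      rw [this]
      exact hh
  -- the orbit
  have hk : C.relIndex H = 3 := by
    have hT := relIndex_centralizer_eq_ncard H x (((P : Subgroup G) : Set G) \ {1}) (by
      intro t
      constructor
      · rintro ⟨ht, ht1⟩
        have ht1' : t ≠ 1 := ht1
        by_cases htx : t = x
        · exact ⟨1, H.one_mem, by simp [htx]⟩
        have ho : orderOf t = 2 := Cfsg.Agent.Lib.Invol.klein_order_two P hP ht ht1'
        obtain ⟨g, hg⟩ := isConj_iff.1 (hone x t hx ho)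
        obtain ⟨n, hn, hnx⟩ := Cfsg.Agent.Lib.Techniques.burnside_fusion (P := (P : Subgroup G))
          (Cfsg.Agent.Lib.Techniques.sylowIn_top_of_sylow P)
          (fun z hz => Cfsg.Agent.Lib.Invol.klein_comm P hP hz hxP)
          (fun z hz => Cfsg.Agent.Lib.Invol.klein_comm P hP hz ht) hg
        exact ⟨n, hn, hnx⟩
      · rintro ⟨h, hh, rfl⟩
        refine ⟨(Subgroup.mem_normalizer_iff.1 hh x).1 hxP, ?_⟩
        intro h1
        apply hx1
        have h1' : h * x * h⁻¹ = 1 := h1
        have : x = h⁻¹ * (h * x * h⁻¹) * h := by group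
        rw [this, h1']
        group)
    rw [hT, Set.ncard_diff_singleton_of_mem (by exact (P : Subgroup G).one_mem)]
    have : ((P : Subgroup G) : Set G).ncard = 4 := by
      rw [← Nat.card_coe_set_eq]
      exact hcard4
    rw [this]
  have hcomm : ∀ a b : G, a ∈ (P : Subgroup G) → b ∈ (P : Subgroup G) → a * b = b * a :=
    fun a b ha hb => Cfsg.Agent.Lib.Invol.klein_comm P hP ha hb
  have hPC : (P : Subgroup G) ≤ C := by
    intro g hg
    rw [hCdef, Subgroup.mem_centralizer_singleton_iff]
    exact hcomm g x hg hxP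
  have hC4 : 4 ≤ Nat.card C := by
    rw [← hcard4]
    exact Subgroup.card_le_of_le hPC
  obtain ⟨M, hM⟩ := Cfsg.Agent.Lib.Char.exists_isPModular 2 Nat.prime_two
  obtain ⟨ζ₂, ζ₃, ζ₄, ε, hε, h2, h3, h23, h24, h34, hB, hvals, hd2, hd3, hd4, -⟩ :=
    principal_klein hM P hP hone
  have hv := hvals x hx
  have h4 : (ζ₄ : G → ℂ) ≠ fun _ => 1 := by
    intro h
    have := hv.2.2
    rw [h] at this
    norm_num at this
  obtain ⟨a, h, ha, hh, hmain, hrel⟩ := Cfsg.Agent.Lib.FF.klein_formula_core M hM P hP hone x hxP hx ζ₂ ζ₃ ζ₄ 1 ε (-1)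
    hB ⟨h2, h3, h4, h23, h24, h34⟩ ⟨Or.inl rfl, hε, Or.inr rfl⟩
    ⟨by simpa using hv.1, hv.2.1, by simpa using hv.2.2⟩
  rw [hC] at hh
  have hCpos : 0 < Nat.card C := Nat.card_pos
  have hh1 : h = 1 := by
    have : h * Nat.card C = 1 * Nat.card C := by rw [one_mul]; exact hh
    exact Nat.eq_of_mul_eq_mul_right hCpos this
  subst hh1
  have hindex : a = C.index := by
    have h5 := C.card_mul_index
    have : a * Nat.card C = C.index * Nat.card C := by rw [ha, mul_comm C.index, h5]
    exact Nat.eq_of_mul_eq_mul_right hCpos this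
  have hidx : C.index = 3 * H.index := by
    rw [← Subgroup.relIndex_mul_index hCH, hk]
  have hNodd : ¬ 2 ∣ H.index := by
    intro hd
    exact P.not_dvd_index (hd.trans (Subgroup.index_dvd_of_le Subgroup.le_normalizer))
  have hG : Nat.card G = a * Nat.card C := ha.symm
  have hN1 : H.index ≠ 1 := by
    intro h1
    have hHtop : H = ⊤ := Subgroup.index_eq_one.1 h1
    have hPn : ((P : Subgroup G)).Normal := Subgroup.normalizer_eq_top_iff.1 hHtop
    rcases hPn.eq_bot_or_eq_top with h6 | h6
    · rw [h6] at hcard4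
      simp at hcard4
    · rw [h6] at hcard4
      have h7 : Nat.card G = 4 := by rwa [Subgroup.card_top] at hcard4
      rw [hG, hindex, hidx, h1] at h7
      omega
  have hHne : H ≠ ⊤ := fun h => hN1 (Subgroup.index_eq_one.2 h)
  have hN3 : H.index ≠ 3 := by
    intro h1
    have h7 := Cfsg.Agent.Lib.Invol.card_le_factorial_index hHne
    rw [h1, hG, hindex, hidx, h1] at h7
    have : (3 : ℕ).factorial = 6 := rfl
    rw [this] at h7
    nlinarith
  have hN0 : H.index ≠ 0 := Subgroup.index_ne_zero_of_finite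
  have hN5 : 5 ≤ H.index := by omega
  have ha15 : (15 : ℤ) ≤ (a : ℤ) := by
    have : 15 ≤ a := by omega
    exact_mod_cast this
  have hd1p : (0 : ℤ) < (charDegree (ζ₂ : G → ℂ) : ℤ) := by exact_mod_cast charDegree_pos_of_irr ζ₂.2
  have hd2p : (0 : ℤ) < (charDegree (ζ₃ : G → ℂ) : ℤ) := by exact_mod_cast charDegree_pos_of_irr ζ₃.2
  have hd3p : (0 : ℤ) < (charDegree (ζ₄ : G → ℂ) : ℤ) := by exact_mod_cast charDegree_pos_of_irr ζ₄.2
  have h15 := klein_arith (a : ℤ) _ _ _ ε hε hd3 hd4 hd1p hd2p hd3p ha15 (by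
    have := hmain
    push_cast at this
    exact this) hrel
  have ha15' : a = 15 := by exact_mod_cast h15
  have hNe : H.index = 5 := by omega
  refine iso_A5_of_index_five H hNe ?_
  rw [hG, ha15']
  omega

/-- A group with a four-group `P` as Sylow `2`-subgroup, all involutions conjugate, `C(x) = C(P)` of order four for an
involution `x ∈ P` and with `N(P)` core-free is `A₅`. -/
theorem klein_core_iso_A5 {G : Type*} [Group G] [Fintype G] (P : Sylow 2 G)
    (hP : IsKleinFour (P : Subgroup G)) (hone : ∀ s t : G, orderOf s = 2 → orderOf t = 2 → IsConj s t)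
    (x : G) (hxP : x ∈ (P : Subgroup G)) (hx : orderOf x = 2)
    (hC : Subgroup.centralizer ((P : Subgroup G) : Set G) = Subgroup.centralizer ({x} : Set G))
    (hCc4 : Nat.card (Subgroup.centralizer ({x} : Set G)) = 4)
    (hcore : (Subgroup.normalizer ((P : Subgroup G) : Set G)).normalCore = ⊥) :
    Nonempty (G ≃* alternatingGroup (Fin 5)) := by
  classical
  have hx1 : x ≠ 1 := by
    intro e
    rw [e, orderOf_one] at hx
    omega
  set C := Subgroup.centralizer ({x} : Set G) with hCdef
  set H := Subgroup.normalizer ((P : Subgroup G) : Set G) with hHdef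
  have hcard4 : Nat.card (P : Subgroup G) = 4 := IsKleinFour.card_four
  have hCH : C ≤ H := by
    intro g hg
    rw [← hC] at hg
    rw [hHdef, Subgroup.mem_normalizer_iff]
    intro h
    have hcg : ∀ t ∈ (P : Subgroup G), t * g = g * t := fun t ht =>
      Subgroup.mem_centralizer_iff.1 hg t ht
    constructor
    · intro hh
      have : g * h * g⁻¹ = h := by
        rw [← hcg h hh]
        group
      rwa [this]
    · intro hh
      have h1 := hcg _ hh
      have : h = g * h * g⁻¹ := by
        have h2 : g * h * g⁻¹ * g = g * (g * h * g⁻¹) := h1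
        have h3 : g * h = g * (g * h * g⁻¹) := by
          rw [← h2]
          group
        exact mul_left_cancel h3
      rw [this]
      exact hh
  -- the orbit
  have hk : C.relIndex H = 3 := by
    have hT := relIndex_centralizer_eq_ncard H x (((P : Subgroup G) : Set G) \ {1}) (by
      intro t
      constructor
      · rintro ⟨ht, ht1⟩
        have ht1' : t ≠ 1 := ht1
        by_cases htx : t = x
        · exact ⟨1, H.one_mem, by simp [htx]⟩
        have ho : orderOf t = 2 := Cfsg.Agent.Lib.Invol.klein_order_two P hP ht ht1'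
        obtain ⟨g, hg⟩ := isConj_iff.1 (hone x t hx ho)
        obtain ⟨n, hn, hnx⟩ := Cfsg.Agent.Lib.Techniques.burnside_fusion (P := (P : Subgroup G))
          (Cfsg.Agent.Lib.Techniques.sylowIn_top_of_sylow P)
          (fun z hz => Cfsg.Agent.Lib.Invol.klein_comm P hP hz hxP)
          (fun z hz => Cfsg.Agent.Lib.Invol.klein_comm P hP hz ht) hg
        exact ⟨n, hn, hnx⟩
      · rintro ⟨h, hh, rfl⟩
        refine ⟨(Subgroup.mem_normalizer_iff.1 hh x).1 hxP, ?_⟩
        intro h1
        apply hx1
        have h1' : h * x * h⁻¹ = 1 := h1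
        have : x = h⁻¹ * (h * x * h⁻¹) * h := by group
        rw [this, h1']
        group)
    rw [hT, Set.ncard_diff_singleton_of_mem (by exact (P : Subgroup G).one_mem)]
    have : ((P : Subgroup G) : Set G).ncard = 4 := by
      rw [← Nat.card_coe_set_eq]
      exact hcard4
    rw [this]
  have hcomm : ∀ a b : G, a ∈ (P : Subgroup G) → b ∈ (P : Subgroup G) → a * b = b * a :=
    fun a b ha hb => Cfsg.Agent.Lib.Invol.klein_comm P hP ha hb
  have hPC : (P : Subgroup G) ≤ C := by
    intro g hg
    rw [hCdef, Subgroup.mem_centralizer_singleton_iff]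
    exact hcomm g x hg hxP
  have hC4 : 4 ≤ Nat.card C := by
    rw [← hcard4]
    exact Subgroup.card_le_of_le hPC
  obtain ⟨M, hM⟩ := Cfsg.Agent.Lib.Char.exists_isPModular 2 Nat.prime_two
  obtain ⟨ζ₂, ζ₃, ζ₄, ε, hε, h2, h3, h23, h24, h34, hB, hvals, hd2, hd3, hd4, -⟩ :=
    principal_klein hM P hP hone
  have hv := hvals x hx
  have h4 : (ζ₄ : G → ℂ) ≠ fun _ => 1 := by
    intro h
    have := hv.2.2
    rw [h] at this
    norm_num at this
  obtain ⟨a, h, ha, hh, hmain, hrel⟩ := Cfsg.Agent.Lib.FF.klein_formula_core M hM P hP hone x hxP hx ζ₂ ζ₃ ζ₄ 1 ε (-1)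
    hB ⟨h2, h3, h4, h23, h24, h34⟩ ⟨Or.inl rfl, hε, Or.inr rfl⟩
    ⟨by simpa using hv.1, hv.2.1, by simpa using hv.2.2⟩
  rw [hC] at hh
  have hCpos : 0 < Nat.card C := Nat.card_pos
  have hh1 : h = 1 := by
    have : h * Nat.card C = 1 * Nat.card C := by rw [one_mul]; exact hh
    exact Nat.eq_of_mul_eq_mul_right hCpos this
  subst hh1
  have hindex : a = C.index := by
    have h5 := C.card_mul_index
    have : a * Nat.card C = C.index * Nat.card C := by rw [ha, mul_comm C.index, h5]
    exact Nat.eq_of_mul_eq_mul_right hCpos this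
  have hidx : C.index = 3 * H.index := by
    rw [← Subgroup.relIndex_mul_index hCH, hk]
  have hNodd : ¬ 2 ∣ H.index := by
    intro hd
    exact P.not_dvd_index (hd.trans (Subgroup.index_dvd_of_le Subgroup.le_normalizer))
  have hG : Nat.card G = a * Nat.card C := ha.symm
  have hinj : Function.Injective (MulAction.toPermHom G (G ⧸ H)) := by
    rw [← MonoidHom.ker_eq_bot_iff, ← Subgroup.normalCore_eq_ker]
    exact hcore
  have hN1 : H.index ≠ 1 := by
    intro h1
    have h7 := Nat.card_le_card_of_injective _ hinj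
    rw [Nat.card_perm, ← Subgroup.index_eq_card, h1, hG, hindex, hidx, h1] at h7
    have : (1 : ℕ).factorial = 1 := rfl
    rw [this] at h7
    nlinarith
  have hN3 : H.index ≠ 3 := by
    intro h1
    have h7 := Nat.card_le_card_of_injective _ hinj
    rw [Nat.card_perm, ← Subgroup.index_eq_card, h1, hG, hindex, hidx, h1] at h7
    have : (3 : ℕ).factorial = 6 := rfl
    rw [this] at h7
    nlinarith
  have hN0 : H.index ≠ 0 := Subgroup.index_ne_zero_of_finite
  have hN5 : 5 ≤ H.index := by omega
  have ha15 : (15 : ℤ) ≤ (a : ℤ) := by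
    have : 15 ≤ a := by omega
    exact_mod_cast this
  have hd1p : (0 : ℤ) < (charDegree (ζ₂ : G → ℂ) : ℤ) := by exact_mod_cast charDegree_pos_of_irr ζ₂.2
  have hd2p : (0 : ℤ) < (charDegree (ζ₃ : G → ℂ) : ℤ) := by exact_mod_cast charDegree_pos_of_irr ζ₃.2
  have hd3p : (0 : ℤ) < (charDegree (ζ₄ : G → ℂ) : ℤ) := by exact_mod_cast charDegree_pos_of_irr ζ₄.2
  have h15 := klein_arith (a : ℤ) _ _ _ ε hε hd3 hd4 hd1p hd2p hd3p ha15 (by
    have := hmain
    push_cast at this
    exact this) hrel
  have ha15' : a = 15 := by exact_mod_cast h15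
  have hNe : H.index = 5 := by omega
  classical
  haveI := Fintype.ofFinite (G ⧸ H)
  have hc5 : Fintype.card (G ⧸ H) = 5 := by
    rw [← Nat.card_eq_fintype_card, ← Subgroup.index_eq_card, hNe]
  have e : (G ⧸ H) ≃ Fin 5 := Fintype.equivFinOfCardEq hc5
  let φ : G →* Equiv.Perm (Fin 5) := (Equiv.permCongrHom e).toMonoidHom.comp (MulAction.toPermHom G (G ⧸ H))
  have hφinj : Function.Injective φ := (Equiv.permCongrHom e).injective.comp hinj
  have hG60 : Nat.card G = 60 := by
    rw [hG, ha15', hCc4]
  have hrange : Nat.card φ.range = 60 := by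
    rw [← hG60]
    exact Nat.card_congr (MonoidHom.ofInjective hφinj).toEquiv.symm
  have hidx2 : φ.range.index = 2 := by
    have h1 := φ.range.card_mul_index
    rw [hrange, Nat.card_perm] at h1
    have : (Nat.card (Fin 5)).factorial = 120 := by
      simp [Nat.factorial]
    rw [this] at h1
    omega
  have hA := Equiv.Perm.eq_alternatingGroup_of_index_eq_two hidx2
  exact ⟨(MonoidHom.ofInjective hφinj).trans (MulEquiv.subgroupCongr hA)⟩

end Cfsg.Agent.Lib.InvolChar
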