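import Mathlib
import Cfsg.Agent.Lib.FStar.Signalizer

/-!
`p`-constraint passing to `p`-local subgroups: from centralizers of elements of order `p`, and from
larger `p`-locals.
-/

set_option autoImplicit false
set_option linter.unusedSectionVars false
set_option linter.unusedVariables false

open Subgroup Cfsg Cfsg.Agent.Lib.Core Cfsg.Agent.Lib.FStar

namespace Cfsg.Agent.Lib.InvolChar

variable {p : ℕ} [hp : Fact p.Prime]

/-- A surjection with `p'`-kernel preserves trivial `p`-layer. -/
theorem pLayer_eq_bot_of_surjective {M R : Type*} [Group M] [Finite M] [Group R] [Finite R]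
    (f : M →* R) (hf : Function.Surjective f) (hk : (Nat.card f.ker).Coprime p)
    (hM : pLayer p M = ⊥) : pLayer p R = ⊥ := by
  rw [pLayer_eq_bot_iff] at hM ⊢
  set π := QuotientGroup.mk' (pPrimeCore p R) with hπ
  set g : M →* R ⧸ pPrimeCore p R := π.comp f with hg
  have hgs : Function.Surjective g :=
    (QuotientGroup.mk'_surjective _).comp hf
  have hker : g.ker = pPrimeCore p M := by
    apply le_antisymm
    · refine le_pPrimeCore inferInstance ?_
      have h1 : g.ker = (pPrimeCore p R).comap f := by
        ext x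
        rw [MonoidHom.mem_ker, hg, MonoidHom.comp_apply, hπ, QuotientGroup.mk'_apply,
          QuotientGroup.eq_one_iff, Subgroup.mem_comap]
      rw [h1, card_comap_of_surjective f hf]
      exact Nat.Coprime.mul_left hk (pPrimeCore_coprime p R)
    · have h2 := map_pPrimeCore_le_of_surjective (p := p) f hf
      intro x hx
      rw [MonoidHom.mem_ker, hg, MonoidHom.comp_apply, hπ, QuotientGroup.mk'_apply,
        QuotientGroup.eq_one_iff]
      exact h2 ⟨x, hx, rfl⟩
  have e : (M ⧸ pPrimeCore p M) ≃* (R ⧸ pPrimeCore p R) :=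
    (QuotientGroup.quotientMulEquivOfEq hker.symm).trans
      (QuotientGroup.quotientKerEquivOfSurjective g hgs)
  have h3 := layer_map_equiv e
  rw [hM, Subgroup.map_bot] at h3
  exact h3.symm

/-- If all centralizers of elements of order `p` have trivial `p`-layer, then so have all `p`-locals. -/
theorem pLayer_normalizer_of_centralizers {G : Type*} [Group G] [Finite G]
    (h : ∀ x : G, orderOf x = p → pLayer p (centralizer ({x} : Set G)) = ⊥)
    {T : Subgroup G} (hT : IsPGroup p T) (hT1 : T ≠ ⊥) :
    pLayer p (normalizer (T : Set G)) = ⊥ := by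
  have : Nontrivial T := (Subgroup.nontrivial_iff_ne_bot T).mpr hT1
  have hZ := hT.center_nontrivial
  have hZp : IsPGroup p (Subgroup.center T) := hT.to_subgroup _
  have h2 : p ∣ Nat.card (Subgroup.center T) := by
    rcases hZp.card_eq_or_dvd with h1 | h1
    · exact absurd h1 Finite.one_lt_card.ne'
    · exact h1
  obtain ⟨z, hz⟩ := exists_prime_orderOf_dvd_card' p h2
  set t : G := ((z : T) : G) with ht
  have ht2 : orderOf t = p := by
    rw [ht, Subgroup.orderOf_coe, Subgroup.orderOf_coe, hz]
  have htT : ∀ y ∈ T, y * t = t * y := by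
    intro y hy
    have := (Subgroup.mem_center_iff.mp z.2) ⟨y, hy⟩
    exact congrArg Subtype.val this
  have htmem : t ∈ T := (z : T).2
  set C := centralizer ({t} : Set G) with hC
  have hTC : T ≤ C := fun y hy => mem_centralizer_singleton_iff.mpr (htT y hy)
  set T' : Subgroup C := T.subgroupOf C with hT'
  have hT'p : IsPGroup p T' := Cfsg.Agent.Lib.FF.isPGroup_subgroupOf hT
  set M := normalizer (T' : Set C) with hM
  have hlayerM : pLayer p M = ⊥ := (pLayer_local_eq_bot (h t ht2) hT'p).1
  set H := normalizer (T : Set G) with hH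
  have hconj : ∀ b : M, ∀ y ∈ T, ((b : C) : G) * y * ((b : C) : G)⁻¹ ∈ T := by
    intro b y hy
    have h1 : (⟨y, hTC hy⟩ : C) ∈ T' := hy
    have h2 := (mem_normalizer_iff.mp b.2 _).mp h1
    exact h2
  have hMH : ∀ b : M, ((b : C) : G) ∈ H := by
    intro b
    rw [hH, mem_normalizer_iff]
    intro y
    refine ⟨hconj b y, fun hy => ?_⟩
    have := hconj b⁻¹ _ hy
    simpa [mul_assoc] using this
  set φ : M →* H := (C.subtype.comp M.subtype).codRestrict H hMH with hφ
  have hφi : Function.Injective φ := by
    intro a b hab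
    apply Subtype.ext
    apply Subtype.ext
    have h := congrArg Subtype.val hab
    exact h
  have hrange : ∀ a : H, (a : G) * t = t * a → a ∈ φ.range := by
    intro a ha
    have haC : (a : G) ∈ C := mem_centralizer_singleton_iff.mpr ha
    have haM : (⟨a, haC⟩ : C) ∈ M := by
      rw [hM, mem_normalizer_iff]
      intro y
      change (y : G) ∈ T ↔ (a : G) * y * (a : G)⁻¹ ∈ T
      exact (mem_normalizer_iff.mp a.2 y)
    exact ⟨⟨⟨a, haC⟩, haM⟩, Subtype.ext rfl⟩
  have hTH : T.comap H.subtype ≤ pCore p H := comap_le_pCore_of_normalized hT le_rfl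
  set t' : H := ⟨t, le_normalizer htmem⟩ with ht'
  have ht'p : t' ∈ pCore p H := hTH htmem
  set O := pPrimeCore p H with hO
  set π := QuotientGroup.mk' O with hπ
  have hπs : Function.Surjective π := QuotientGroup.mk'_surjective O
  set ψ : M →* H ⧸ O := π.comp φ with hψ
  rw [pLayer_eq_bot_iff, eq_bot_iff]
  refine sSup_le fun L hL => ?_
  exfalso
  have htbar : π t' ∈ pCore p (H ⧸ O) :=
    map_pCore_le_of_surjective π hπs ⟨t', ht'p, rfl⟩
  have hOa : (orderOf t').Coprime (Nat.card O) := by
    have h1 : orderOf t' = p := by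
      rw [← Subgroup.orderOf_coe]; exact ht2
    rw [h1]
    exact (pPrimeCore_coprime p H).symm
  have hLr : L ≤ ψ.range := by
    intro l hl
    obtain ⟨c, rfl⟩ := hπs l
    have hcomm := mul_comm_of_commutator_eq_bot (component_commute_pCore hL) hl htbar
    have hx : c⁻¹ * (t' * c * t'⁻¹) ∈ O := by
      rw [← QuotientGroup.eq_one_iff (N := O)]
      change π _ = 1
      rw [map_mul, map_inv, map_mul, map_mul, map_inv, ← hcomm]
      group
    obtain ⟨n', hn'1, hn'2⟩ := exists_coset_centralizing_elt (b := t') (N := O)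
      (fun z hz => (pPrimeCore_normal p H).conj_mem z hz t') hOa c hx
    set c' := c * n' with hc'
    have hc't : c' * t' = t' * c' := by
      calc c' * t' = (t' * c' * t'⁻¹) * t' := by rw [hn'2]
        _ = t' * c' := by group
    have hc't2 : (c' : G) * t = t * c' := congrArg Subtype.val hc't
    obtain ⟨m, hm⟩ := hrange c' hc't2
    refine ⟨m, ?_⟩
    change π (φ m) = π c
    rw [hm, hc', map_mul]
    have : π n' = 1 := by
      rw [hπ, QuotientGroup.mk'_apply, QuotientGroup.eq_one_iff]; exact hn'1
    rw [this, mul_one]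
  -- pass to the range
  set R := ψ.range with hR
  have hkercop : (Nat.card ψ.rangeRestrict.ker).Coprime p := by
    refine Nat.Coprime.coprime_dvd_left ?_ (pPrimeCore_coprime p H)
    have hkk : ∀ x : M, x ∈ ψ.rangeRestrict.ker → φ x ∈ O := by
      intro x hx
      rw [MonoidHom.mem_ker] at hx
      have h3 : ψ x = 1 := congrArg Subtype.val hx
      rw [← QuotientGroup.eq_one_iff (N := O)]
      exact h3
    refine Subgroup.card_dvd_of_injective (f := (φ.comp ψ.rangeRestrict.ker.subtype).codRestrict O
      (fun x => hkk x.1 x.2)) ?_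
    intro a b hab
    apply Subtype.ext
    apply hφi
    exact congrArg Subtype.val hab
  have hRlayer : pLayer p R = ⊥ :=
    pLayer_eq_bot_of_surjective ψ.rangeRestrict ψ.rangeRestrict_surjective hkercop hlayerM
  have hcomp : IsComponent (L.comap R.subtype) :=
    component_comap_of_le_range R.subtype_injective hL (by rw [Subgroup.range_subtype]; exact hLr)
  have hbot : (L.comap R.subtype).map (QuotientGroup.mk' (pPrimeCore p R)) = ⊥ := by
    rcases component_map_eq_bot_or_component (p := p) hcomp with h5 | h5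
    · exact h5
    · exfalso
      have h6 := component_le_layer h5
      rw [pLayer_eq_bot_iff.mp hRlayer, le_bot_iff] at h6
      exact qs_subgroup_ne_bot h5.2 h6
  have hle : L.comap R.subtype ≤ pPrimeCore p R := by
    rw [Subgroup.map_eq_bot_iff, QuotientGroup.ker_mk'] at hbot
    exact hbot
  have hLcop : (Nat.card L).Coprime p := by
    have e : (L.comap R.subtype) ≃* L :=
      { toFun := fun x => ⟨x.1.1, x.2⟩
        invFun := fun y => ⟨⟨y.1, hLr y.2⟩, y.2⟩
        left_inv := fun x => rfl
        right_inv := fun y => rfl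
        map_mul' := fun x y => rfl }
    rw [← Nat.card_congr e.toEquiv]
    have h7 : Nat.card (L.comap R.subtype) ∣ Nat.card (pPrimeCore p R) :=
      Subgroup.card_dvd_of_le hle
    exact Nat.Coprime.coprime_dvd_left h7 (pPrimeCore_coprime p R)
  have hLO := le_pPrimeCore_of_subnormal p hL.1 hLcop
  rw [pPrimeCore_quotient_eq_bot, le_bot_iff] at hLO
  exact qs_subgroup_ne_bot hL.2 hLO

/-- If `N_G(T) ≤ M` and `M` has trivial `p`-layer then so does `N_G(T)`. -/
theorem pLayer_normalizer_of_le {G : Type*} [Group G] [Finite G] {M : Subgroup G}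
    (hM : pLayer p M = ⊥) {T : Subgroup G} (hT : IsPGroup p T)
    (hle : normalizer (T : Set G) ≤ M) :
    pLayer p (normalizer (T : Set G)) = ⊥ := by
  have hTM : T ≤ M := le_normalizer.trans hle
  set T' : Subgroup M := T.subgroupOf M with hT'
  have hT'p : IsPGroup p T' := Cfsg.Agent.Lib.FF.isPGroup_subgroupOf hT
  set N := normalizer (T' : Set M) with hN
  have hlayer : pLayer p N = ⊥ := (pLayer_local_eq_bot hM hT'p).1
  set H := normalizer (T : Set G) with hH
  have hconj : ∀ b : N, ∀ y ∈ T, ((b : M) : G) * y * ((b : M) : G)⁻¹ ∈ T := by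
    intro b y hy
    have h1 : (⟨y, hTM hy⟩ : M) ∈ T' := hy
    have h2 := (mem_normalizer_iff.mp b.2 _).mp h1
    exact h2
  have hNH : ∀ b : N, ((b : M) : G) ∈ H := by
    intro b
    rw [hH, mem_normalizer_iff]
    intro y
    refine ⟨hconj b y, fun hy => ?_⟩
    have := hconj b⁻¹ _ hy
    simpa [mul_assoc] using this
  set φ : N →* H := (M.subtype.comp N.subtype).codRestrict H hNH with hφ
  have hφi : Function.Injective φ := by
    intro a b hab
    apply Subtype.ext
    apply Subtype.ext
    have h := congrArg Subtype.val hab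
    exact h
  have hφs : Function.Surjective φ := by
    intro a
    have haM : (a : G) ∈ M := hle a.2
    have haN : (⟨a, haM⟩ : M) ∈ N := by
      rw [hN, mem_normalizer_iff]
      intro y
      change (y : G) ∈ T ↔ (a : G) * y * (a : G)⁻¹ ∈ T
      exact (mem_normalizer_iff.mp a.2 y)
    exact ⟨⟨⟨a, haM⟩, haN⟩, Subtype.ext rfl⟩
  refine pLayer_eq_bot_of_surjective φ hφs ?_ hlayer
  have h1 : φ.ker = ⊥ := (MonoidHom.ker_eq_bot_iff φ).mpr hφi
  rw [h1]
  simp

end Cfsg.Agent.Lib.InvolChar
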