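import Mathlib
import Cfsg.Agent.Lib.KS2.SL2Basic

/-!
Elementary facts about involutions, elements of order four and commuting conjugates in `SL(2,F)`.
-/

set_option autoImplicit false
set_option linter.unusedSectionVars false
set_option linter.unusedVariables false

namespace Cfsg.Agent.Lib.InvolChar

open Matrix Cfsg.Agent.Lib.KS2.SL2
open scoped MatrixGroups

variable {F : Type*} [Field F]

/-- the element `-1` of `SL(2,F)` -/
def minusOne (F : Type*) [Field F] : SL(2, F) := mk (-1) 0 0 (-1) (by ring)

@[simp] lemma minusOne00 : ((minusOne F : SL(2, F)) : Matrix (Fin 2) (Fin 2) F) 0 0 = -1 := rfl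
@[simp] lemma minusOne01 : ((minusOne F : SL(2, F)) : Matrix (Fin 2) (Fin 2) F) 0 1 = 0 := rfl
@[simp] lemma minusOne10 : ((minusOne F : SL(2, F)) : Matrix (Fin 2) (Fin 2) F) 1 0 = 0 := rfl
@[simp] lemma minusOne11 : ((minusOne F : SL(2, F)) : Matrix (Fin 2) (Fin 2) F) 1 1 = -1 := rfl

lemma two_ne_zero_of_ringChar (h2 : ringChar F ≠ 2) : (2 : F) ≠ 0 := Ring.two_ne_zero h2

/-- the only square roots of `1` are `±1`. -/
theorem eq_one_or_minusOne_of_sq (h2 : ringChar F ≠ 2) {g : SL(2, F)} (hg : g * g = 1) :
    g = 1 ∨ g = minusOne F := by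
  have h20 := two_ne_zero_of_ringChar h2
  set a := (g : Matrix (Fin 2) (Fin 2) F) 0 0 with ha
  set b := (g : Matrix (Fin 2) (Fin 2) F) 0 1 with hb
  set c := (g : Matrix (Fin 2) (Fin 2) F) 1 0 with hc
  set d := (g : Matrix (Fin 2) (Fin 2) F) 1 1 with hd
  have hdet : a * d - b * c = 1 := det_rel g
  have e00 : a * a + b * c = 1 := by
    have := congrArg (fun x : SL(2, F) => (x : Matrix (Fin 2) (Fin 2) F) 0 0) hg
    simpa using this
  have e01 : a * b + b * d = 0 := by
    have := congrArg (fun x : SL(2, F) => (x : Matrix (Fin 2) (Fin 2) F) 0 1) hg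
    simpa using this
  have e10 : c * a + d * c = 0 := by
    have := congrArg (fun x : SL(2, F) => (x : Matrix (Fin 2) (Fin 2) F) 1 0) hg
    simpa using this
  have e11 : c * b + d * d = 1 := by
    have := congrArg (fun x : SL(2, F) => (x : Matrix (Fin 2) (Fin 2) F) 1 1) hg
    simpa using this
  -- the trace is `±2`
  have htr : (a + d) * (a + d) = 4 := by linear_combination e00 + e11 + 2 * hdet
  have htr0 : a + d ≠ 0 := by
    intro h
    rw [h] at htr
    have : (2 : F) * 2 = 0 := by linear_combination -htr
    exact h20 (mul_self_eq_zero.mp this)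
  have hb0 : b = 0 := by
    have : b * (a + d) = 0 := by linear_combination e01
    exact (mul_eq_zero.mp this).resolve_right htr0
  have hc0 : c = 0 := by
    have : c * (a + d) = 0 := by linear_combination e10
    exact (mul_eq_zero.mp this).resolve_right htr0
  have had : a = d := by
    have h1 : a * a = 1 := by rw [hb0] at e00; linear_combination e00
    have h2' : a * d = 1 := by rw [hb0] at hdet; linear_combination hdet
    have : a * (a - d) = 0 := by linear_combination h1 - h2'
    have ha0 : a ≠ 0 := by
      rintro h
      rw [h] at h1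
      simp at h1
    have := (mul_eq_zero.mp this).resolve_left ha0
    linear_combination this
  have h1 : (a - 1) * (a + 1) = 0 := by
    rw [hb0] at e00; linear_combination e00
  rcases mul_eq_zero.mp h1 with h | h
  · left
    have ha1 : a = 1 := by linear_combination h
    apply ext4
    · simpa using ha1
    · simpa using hb0
    · simpa using hc0
    · have : d = 1 := by rw [← had]; exact ha1
      simpa using this
  · right
    have ha1 : a = -1 := by linear_combination h
    apply ext4
    · simpa using ha1
    · simpa using hb0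
    · simpa using hc0
    · have : d = -1 := by rw [← had]; exact ha1
      simpa using this

/-- the standard element of order four -/
def omegaFour (F : Type*) [Field F] : SL(2, F) := mk 0 (-1) 1 0 (by ring)

lemma omegaFour_sq : omegaFour F * omegaFour F = minusOne F := by
  apply ext4 <;> simp [omegaFour]

lemma minusOne_ne_one (h2 : ringChar F ≠ 2) : minusOne F ≠ 1 := by
  intro h
  have h1 := congrArg (fun x : SL(2, F) => (x : Matrix (Fin 2) (Fin 2) F) 0 0) h
  have h3 : (-1 : F) = 1 := by simpa using h1
  have h4 : (2 : F) = 0 := by linear_combination -h3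
  exact two_ne_zero_of_ringChar h2 h4

lemma minusOne_sq : minusOne F * minusOne F = 1 := by
  apply ext4 <;> simp

/-- any two square roots of `-1` are conjugate, over a finite field of odd characteristic. -/
theorem isConj_of_sq_eq_minusOne [Fintype F] (h2 : ringChar F ≠ 2) {g h : SL(2, F)}
    (hg : g * g = minusOne F) (hh : h * h = minusOne F) : IsConj g h := by
  have h20 := two_ne_zero_of_ringChar h2
  have key : ∀ g : SL(2, F), g * g = minusOne F → tr g = 0 ∧ ¬ IsScalar g := by
    intro g hg
    set a := (g : Matrix (Fin 2) (Fin 2) F) 0 0 with ha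
    set b := (g : Matrix (Fin 2) (Fin 2) F) 0 1 with hb
    set c := (g : Matrix (Fin 2) (Fin 2) F) 1 0 with hc
    set d := (g : Matrix (Fin 2) (Fin 2) F) 1 1 with hd
    have hdet : a * d - b * c = 1 := det_rel g
    have e00 : a * a + b * c = -1 := by
      have := congrArg (fun x : SL(2, F) => (x : Matrix (Fin 2) (Fin 2) F) 0 0) hg
      simpa using this
    have e11 : c * b + d * d = -1 := by
      have := congrArg (fun x : SL(2, F) => (x : Matrix (Fin 2) (Fin 2) F) 1 1) hg
      simpa using this
    have hsq : (a + d) * (a + d) = 0 := by linear_combination e00 + e11 + 2 * hdet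
    have ht : a + d = 0 := mul_self_eq_zero.mp hsq
    refine ⟨ht, ?_⟩
    rintro ⟨hb0, _, had⟩
    have h3 : a + a = 0 := by
      have : a = d := had
      rw [← this] at ht; exact ht
    have h4 : a = 0 := by
      have : 2 * a = 0 := by linear_combination h3
      exact (mul_eq_zero.mp this).resolve_left h20
    rw [h4, show b = 0 from hb0] at e00
    have : (1 : F) = 0 := by linear_combination e00
    exact one_ne_zero this
  obtain ⟨h1, h3⟩ := key g hg
  obtain ⟨h4, h5⟩ := key h hh
  refine isConj_of_tr_eq g h h3 h5 (h1.trans h4.symm) ?_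
  left
  rw [h1]
  intro h6
  have h7 : (2 : F) * 2 = 0 := by linear_combination -h6
  exact h20 (mul_self_eq_zero.mp h7)

end Cfsg.Agent.Lib.InvolChar

namespace Cfsg.Agent.Lib.InvolChar

open Matrix Cfsg.Agent.Lib.KS2.SL2
open scoped MatrixGroups

variable {F : Type*} [Field F]

/-- a non-scalar element does not commute with some conjugate of itself. -/
theorem exists_conj_not_commute (h2 : ringChar F ≠ 2) {b : SL(2, F)} (hb : ¬ IsScalar b) :
    ∃ c : SL(2, F), b * (c * b * c⁻¹) ≠ (c * b * c⁻¹) * b := by
  have h20 := two_ne_zero_of_ringChar h2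
  by_contra hcon
  push Not at hcon
  set a := (b : Matrix (Fin 2) (Fin 2) F) 0 0 with ha
  set β := (b : Matrix (Fin 2) (Fin 2) F) 0 1 with hβ
  set γ := (b : Matrix (Fin 2) (Fin 2) F) 1 0 with hγ
  set δ := (b : Matrix (Fin 2) (Fin 2) F) 1 1 with hδ
  let u : SL(2, F) := mk 1 1 0 1 (by ring)
  let l : SL(2, F) := mk 1 0 1 1 (by ring)
  have hu := hcon u
  have hl := hcon l
  have hγ0 : γ = 0 := by
    have := congrArg (fun x : SL(2, F) => (x : Matrix (Fin 2) (Fin 2) F) 1 0) hu
    simp [u] at this
    have h3 : 2 * (γ * γ) = 0 := by linear_combination this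
    have h4 := (mul_eq_zero.mp h3).resolve_left h20
    exact mul_self_eq_zero.mp h4
  have hβ0 : β = 0 := by
    have := congrArg (fun x : SL(2, F) => (x : Matrix (Fin 2) (Fin 2) F) 0 1) hl
    simp [l] at this
    have h3 : 2 * (β * β) = 0 := by linear_combination this
    have h4 := (mul_eq_zero.mp h3).resolve_left h20
    exact mul_self_eq_zero.mp h4
  apply hb
  refine ⟨hβ0, hγ0, ?_⟩
  have := congrArg (fun x : SL(2, F) => (x : Matrix (Fin 2) (Fin 2) F) 0 1) hu
  simp [u] at this
  rw [← ha, ← hβ, ← hγ, ← hδ, hβ0, hγ0] at this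
  have h3 : (a - δ) * (a - δ) = 0 := by linear_combination -this
  have h4 := mul_self_eq_zero.mp h3
  exact sub_eq_zero.mp h4

/-- two elements commuting with a non-scalar element commute with each other. -/
theorem commute_of_commute_nonscalar {a x y : SL(2, F)} (ha : ¬ IsScalar a)
    (hx : a * x = x * a) (hy : a * y = y * a) : x * y = y * x := by
  set p := (a : Matrix (Fin 2) (Fin 2) F) 0 0 - (a : Matrix (Fin 2) (Fin 2) F) 1 1 with hp
  set q := (a : Matrix (Fin 2) (Fin 2) F) 0 1 with hq
  set r := (a : Matrix (Fin 2) (Fin 2) F) 1 0 with hr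
  set x1 := (x : Matrix (Fin 2) (Fin 2) F) 0 0 with hx1
  set x2 := (x : Matrix (Fin 2) (Fin 2) F) 0 1 with hx2
  set x3 := (x : Matrix (Fin 2) (Fin 2) F) 1 0 with hx3
  set x4 := (x : Matrix (Fin 2) (Fin 2) F) 1 1 with hx4
  set y1 := (y : Matrix (Fin 2) (Fin 2) F) 0 0 with hy1
  set y2 := (y : Matrix (Fin 2) (Fin 2) F) 0 1 with hy2
  set y3 := (y : Matrix (Fin 2) (Fin 2) F) 1 0 with hy3
  set y4 := (y : Matrix (Fin 2) (Fin 2) F) 1 1 with hy4
  have e1 : q * x3 = r * x2 := by
    have := congrArg (fun z : SL(2, F) => (z : Matrix (Fin 2) (Fin 2) F) 0 0) hx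
    simp only [mul00] at this
    linear_combination this
  have e2 : p * x2 = q * (x1 - x4) := by
    have := congrArg (fun z : SL(2, F) => (z : Matrix (Fin 2) (Fin 2) F) 0 1) hx
    simp only [mul01] at this
    linear_combination this
  have e3 : p * x3 = r * (x1 - x4) := by
    have := congrArg (fun z : SL(2, F) => (z : Matrix (Fin 2) (Fin 2) F) 1 0) hx
    simp only [mul10] at this
    linear_combination -this
  have f1 : q * y3 = r * y2 := by
    have := congrArg (fun z : SL(2, F) => (z : Matrix (Fin 2) (Fin 2) F) 0 0) hy
    simp only [mul00] at this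
    linear_combination this
  have f2 : p * y2 = q * (y1 - y4) := by
    have := congrArg (fun z : SL(2, F) => (z : Matrix (Fin 2) (Fin 2) F) 0 1) hy
    simp only [mul01] at this
    linear_combination this
  have f3 : p * y3 = r * (y1 - y4) := by
    have := congrArg (fun z : SL(2, F) => (z : Matrix (Fin 2) (Fin 2) F) 1 0) hy
    simp only [mul10] at this
    linear_combination -this
  set t := x1 - x4 with ht
  set u := y1 - y4 with hu
  have key : x2 * y3 = y2 * x3 ∧ t * y2 = u * x2 ∧ u * x3 = t * y3 := by
    by_cases hp0 : p = 0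
    · by_cases hq0 : q = 0
      · have hr0 : r ≠ 0 := by
          intro hr0
          apply ha
          exact ⟨hq0, hr0, sub_eq_zero.mp hp0⟩
        refine ⟨?_, ?_, ?_⟩
        · rw [hq0] at e1 f1
          have h1 : x2 = 0 := by
            have : r * x2 = 0 := by linear_combination -e1
            exact (mul_eq_zero.mp this).resolve_left hr0
          have h3 : y2 = 0 := by
            have : r * y2 = 0 := by linear_combination -f1
            exact (mul_eq_zero.mp this).resolve_left hr0
          rw [h1, h3]; ring
        · rw [hq0] at e1 f1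
          have h1 : x2 = 0 := by
            have : r * x2 = 0 := by linear_combination -e1
            exact (mul_eq_zero.mp this).resolve_left hr0
          have h3 : y2 = 0 := by
            have : r * y2 = 0 := by linear_combination -f1
            exact (mul_eq_zero.mp this).resolve_left hr0
          rw [h1, h3]; ring
        · rw [hp0] at e3 f3
          have h1 : t = 0 := by
            have : r * t = 0 := by linear_combination -e3
            exact (mul_eq_zero.mp this).resolve_left hr0
          have h3 : u = 0 := by
            have : r * u = 0 := by linear_combination -f3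
            exact (mul_eq_zero.mp this).resolve_left hr0
          rw [h1, h3]; ring
      · rw [hp0] at e2 f2
        have h1 : t = 0 := by
          have : q * t = 0 := by linear_combination -e2
          exact (mul_eq_zero.mp this).resolve_left hq0
        have h3 : u = 0 := by
          have : q * u = 0 := by linear_combination -f2
          exact (mul_eq_zero.mp this).resolve_left hq0
        refine ⟨?_, ?_, ?_⟩
        · apply mul_left_cancel₀ hq0
          linear_combination y3 * (0 : F) + x2 * f1 * 1 + (-y2) * e1 * 1 + (r * x2 * y2 - r * x2 * y2)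
        · rw [h1, h3]; ring
        · rw [h1, h3]; ring
    · refine ⟨?_, ?_, ?_⟩
      · apply mul_left_cancel₀ (mul_ne_zero hp0 hp0)
        linear_combination (p * y3) * e2 + (q * t) * f3 - (p * x3) * f2 - (q * u) * e3
      · apply mul_left_cancel₀ hp0
        linear_combination t * f2 - u * e2
      · apply mul_left_cancel₀ hp0
        linear_combination u * e3 - t * f3
  obtain ⟨k1, k2, k3⟩ := key
  have ht' : t = x1 - x4 := ht
  have hu' : u = y1 - y4 := hu
  apply ext4
  · simp only [mul00]
    linear_combination k1
  · simp only [mul01]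
    rw [← hx1, ← hx2, ← hx4, ← hy1, ← hy2, ← hy4]
    rw [ht', hu'] at k2
    linear_combination k2
  · simp only [mul10]
    rw [← hx1, ← hx3, ← hx4, ← hy1, ← hy3, ← hy4]
    rw [ht', hu'] at k3
    linear_combination k3
  · simp only [mul11]
    linear_combination -k1

/-- an element conjugating every element to plus or minus itself is scalar. -/
theorem isScalar_of_forall_conj (h2 : ringChar F ≠ 2) {g : SL(2, F)}
    (h : ∀ x : SL(2, F), g * x * g⁻¹ = x ∨ g * x * g⁻¹ = x * minusOne F) : IsScalar g := by
  have h20 := two_ne_zero_of_ringChar h2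
  have h40 : (4 : F) ≠ 0 := by
    have : (4 : F) = 2 * 2 := by norm_num
    rw [this]
    exact mul_ne_zero h20 h20
  let u : SL(2, F) := mk 1 1 0 1 (by ring)
  let l : SL(2, F) := mk 1 0 1 1 (by ring)
  have key : ∀ x : SL(2, F), tr x = 2 → g * x = x * g := by
    intro x hx
    rcases h x with h1 | h1
    · calc g * x = g * x * g⁻¹ * g := by group
        _ = x * g := by rw [h1]
    · exfalso
      have h3 := tr_conj g x
      rw [h1, hx] at h3
      have h5 : tr (x * minusOne F) = - tr x := by
        simp [tr]; ring
      rw [h5, hx] at h3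
      have : (2 : F) * 2 = 0 := by linear_combination -h3
      exact h20 (mul_self_eq_zero.mp this)
  have hu := key u (by simp [tr, u]; norm_num)
  have hl := key l (by simp [tr, l]; norm_num)
  refine ⟨?_, ?_, ?_⟩
  · have := congrArg (fun z : SL(2, F) => (z : Matrix (Fin 2) (Fin 2) F) 0 0) hl
    simp [l] at this
    exact this
  · have := congrArg (fun z : SL(2, F) => (z : Matrix (Fin 2) (Fin 2) F) 0 0) hu
    simp [u] at this
    exact this
  · have := congrArg (fun z : SL(2, F) => (z : Matrix (Fin 2) (Fin 2) F) 0 1) hu
    simp [u] at this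
    have h5 : (g : Matrix (Fin 2) (Fin 2) F) 1 0 = 0 := by
      have := congrArg (fun z : SL(2, F) => (z : Matrix (Fin 2) (Fin 2) F) 0 0) hu
      simp [u] at this
      exact this
    linear_combination this

/-- scalars are `±1`. -/
theorem eq_one_or_minusOne_of_isScalar (h2 : ringChar F ≠ 2) {g : SL(2, F)} (hg : IsScalar g) :
    g = 1 ∨ g = minusOne F := by
  apply eq_one_or_minusOne_of_sq h2
  rw [isScalar_iff_center] at hg
  obtain ⟨h01, h10, h00⟩ := (isScalar_iff_center g).mpr hg
  have hdet := det_rel g
  rw [h01, h00] at hdet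
  apply ext4
  · simp only [mul00, one00]; rw [h01, h00]; linear_combination hdet
  · simp only [mul01, one01]; rw [h01]; ring
  · simp only [mul10, one10]; rw [h10]; ring
  · simp only [mul11, one11]; rw [h10]; linear_combination hdet

end Cfsg.Agent.Lib.InvolChar
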