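import Mathlib

set_option autoImplicit false

/-!
Helpers on abelian 2-groups with few involutions and quotients with a unique involution.
-/

namespace Cfsg.Agent.Lib.InvolChar

variable {S : Type*} [Group S]

/-- In a quotient with unique involution, the elements with square in the kernel lie in
`D₀ ∪ u D₀`. -/
theorem mem_or_mem_of_unique_invol {D₀ : Subgroup S} [D₀.Normal]
    (hU : ∃! x : S ⧸ D₀, orderOf x = 2) {u : S} (hu : u ∉ D₀) (hu2 : u ^ 2 ∈ D₀) {x : S}
    (hx : x ^ 2 ∈ D₀) : x ∈ D₀ ∨ u⁻¹ * x ∈ D₀ := by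
  have hf : Fact (Nat.Prime 2) := ⟨Nat.prime_two⟩
  by_cases hx1 : x ∈ D₀
  · exact Or.inl hx1
  right
  have h1 : orderOf (QuotientGroup.mk x : S ⧸ D₀) = 2 := by
    apply orderOf_eq_prime
    · rw [← QuotientGroup.mk_pow]; exact (QuotientGroup.eq_one_iff _).mpr hx
    · intro h; exact hx1 ((QuotientGroup.eq_one_iff _).mp h)
  have h2 : orderOf (QuotientGroup.mk u : S ⧸ D₀) = 2 := by
    apply orderOf_eq_prime
    · rw [← QuotientGroup.mk_pow]; exact (QuotientGroup.eq_one_iff _).mpr hu2
    · intro h; exact hu ((QuotientGroup.eq_one_iff _).mp h)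
  have h3 := hU.unique h2 h1
  exact QuotientGroup.eq.mp h3

/-- The key lemma on abelian 2-groups with exactly three involutions: given a subgroup `D` of index
two and a nonempty invariant set `I` outside `D`, some involution is fixed by the automorphisms. -/
theorem exists_fixed_involution {A : Type*} [CommGroup A] [Finite A] (hA : IsPGroup 2 A)
    (hΩ : Nat.card (powMonoidHom 2 : A →* A).ker = 4) (D : Subgroup A) (hD : D.index = 2)
    (I : Set A) (hI : I.Nonempty) (hID : ∀ a ∈ I, a ∉ D) (Φ : Set (A ≃* A))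
    (hinv : ∀ φ ∈ Φ, ∀ a ∈ I, φ a ∈ I) : ∃ t : A, orderOf t = 2 ∧ ∀ φ ∈ Φ, φ t = t := by
  classical
  have hf : Fact (Nat.Prime 2) := ⟨Nat.prime_two⟩
  have : Fintype A := Fintype.ofFinite A
  set sq : A →* A := powMonoidHom 2 with hsq
  -- the exponent
  obtain ⟨n, hn1, hn2⟩ : ∃ n, (∀ a : A, a ^ (2 ^ (n + 1)) = 1) ∧ ∃ a : A, a ^ (2 ^ n) ≠ 1 := by
    obtain ⟨N, hN⟩ := IsPGroup.iff_card.mp hA
    have hex : ∃ m, ∀ a : A, a ^ (2 ^ m) = 1 :=
      ⟨N, fun a => by rw [← hN]; exact pow_card_eq_one'⟩
    have hm := Nat.find_spec hex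
    have hm0 : Nat.find hex ≠ 0 := by
      intro h0
      rw [h0] at hm
      have hall : ∀ a : A, a = 1 := fun a => by simpa using hm a
      have h1 : (powMonoidHom 2 : A →* A).ker = ⊥ := by
        rw [eq_bot_iff]; intro a _; exact (Subgroup.mem_bot).mpr (hall a)
      rw [h1, Subgroup.card_bot] at hΩ
      omega
    obtain ⟨n, hn⟩ := Nat.exists_eq_succ_of_ne_zero hm0
    refine ⟨n, ?_, ?_⟩
    · rw [hn] at hm; exact hm
    · have := Nat.find_min hex (m := n) (by omega)
      push_neg at this
      exact this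
  set p : A →* A := powMonoidHom (2 ^ n) with hp
  have hpa : ∀ a, p a = a ^ (2 ^ n) := fun a => rfl
  have hsqa : ∀ a, sq a = a ^ 2 := fun a => rfl
  have hsq_p : ∀ x ∈ p.range, x ^ 2 = 1 := by
    rintro _ ⟨a, rfl⟩
    rw [hpa, ← pow_mul, ← pow_succ]
    exact hn1 a
  have hle : p.range ≤ sq.ker := by
    intro x hx
    exact hsq_p x hx
  have hdvd : Nat.card p.range ∣ 4 := by
    rw [← hΩ]; exact Subgroup.card_dvd_of_le hle
  obtain ⟨a₀, ha₀⟩ := hn2
  have hne1 : Nat.card p.range ≠ 1 := by
    intro h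
    have h1 : p.range = ⊥ := Subgroup.eq_bot_of_card_eq _ h
    have h2 : p a₀ ∈ p.range := ⟨a₀, rfl⟩
    rw [h1] at h2
    exact ha₀ ((Subgroup.mem_bot).mp h2)
  have hcases : Nat.card p.range = 2 ∨ Nat.card p.range = 4 := by
    have h4 : (4 : ℕ) = 2 ^ 2 := by norm_num
    rw [h4] at hdvd
    obtain ⟨j, hj, hj2⟩ := (Nat.dvd_prime_pow Nat.prime_two).mp hdvd
    interval_cases j
    · exact absurd (by simpa using hj2) hne1
    · left; simpa using hj2
    · right; simpa using hj2
  -- equivariance
  have hequi : ∀ (φ : A ≃* A) (a : A), φ (p a) = p (φ a) := by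
    intro φ a
    rw [hpa, hpa, map_pow]
  rcases hcases with h2 | h4
  · -- the range has two elements
    refine ⟨p a₀, ?_, ?_⟩
    · exact orderOf_eq_prime (hsq_p _ ⟨a₀, rfl⟩) ha₀
    · intro φ _
      rw [hequi]
      have huniq := (Nat.card_eq_two_iff' (1 : p.range)).mp h2
      obtain ⟨y, _, hy⟩ := huniq
      have h3 : (⟨p (φ a₀), ⟨_, rfl⟩⟩ : p.range) = y := by
        apply hy
        intro h
        have h5 : p (φ a₀) = 1 := congrArg Subtype.val h
        rw [← hequi] at h5
        exact ha₀ ((map_eq_one_iff φ φ.injective).mp h5)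
      have h6 : (⟨p a₀, ⟨_, rfl⟩⟩ : p.range) = y := by
        apply hy
        intro h
        exact ha₀ (congrArg Subtype.val h)
      exact congrArg Subtype.val (h3.trans h6.symm)
  · -- the range is all of the involutions
    have h5 : Nat.card p.ker * 4 = Nat.card A := by
      have := Subgroup.card_mul_index p.ker
      rwa [Subgroup.index_ker, h4] at this
    have h6 : 4 * Nat.card sq.range = Nat.card A := by
      have := Subgroup.card_mul_index sq.ker
      rwa [Subgroup.index_ker, hΩ] at this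
    have hsqp : sq.range ≤ p.ker := by
      rintro _ ⟨a, rfl⟩
      show (a ^ 2) ^ (2 ^ n) = 1
      rw [← pow_mul, ← pow_succ']
      exact hn1 a
    have hker : sq.range = p.ker := by
      apply Subgroup.eq_of_le_of_card_ge hsqp
      have h7 : Nat.card p.ker * 4 = Nat.card sq.range * 4 := by rw [h5, ← h6, mul_comm]
      exact (Nat.eq_of_mul_eq_mul_right (by norm_num) h7).le
    have hkerD : p.ker ≤ D := by
      rw [← hker]
      rintro _ ⟨a, rfl⟩
      exact Subgroup.sq_mem_of_index_two hD a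
    have h8 : Nat.card D * 2 = Nat.card A := by
      have := Subgroup.card_mul_index D
      rwa [hD] at this
    have hcardpos : 0 < Nat.card p.ker := Nat.card_pos
    obtain ⟨d', hd'D, hd'⟩ : ∃ d' ∈ D, d' ∉ p.ker := by
      by_contra hcon
      push_neg at hcon
      have h9 : Nat.card D ≤ Nat.card p.ker := Nat.card_le_card_of_injective
        (Subgroup.inclusion (show D ≤ p.ker from hcon)) (Subgroup.inclusion_injective _)
      omega
    set d := p d' with hd
    have hd1 : d ≠ 1 := hd'
    -- the image of I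
    let I₀ : Finset A := Finset.univ.filter (fun x => ∃ a ∈ I, p a = x)
    have hI₀ : ∀ x, x ∈ I₀ ↔ ∃ a ∈ I, p a = x := by
      intro x; simp [I₀]
    let F : Finset A := Finset.univ.filter (fun x => x ∈ p.range ∧ x ≠ 1 ∧ x ≠ d)
    have hFcard : F.card ≤ 2 := by
      let R : Finset A := Finset.univ.filter (fun x => x ∈ p.range)
      have hR : R.card = 4 := by
        rw [← h4, Nat.card_eq_fintype_card]
        exact (Fintype.card_subtype _).symm
      have h1R : (1 : A) ∈ R := Finset.mem_filter.mpr ⟨Finset.mem_univ _, p.range.one_mem⟩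
      have hdR : d ∈ R := Finset.mem_filter.mpr ⟨Finset.mem_univ _, ⟨d', rfl⟩⟩
      have hsub : F ⊆ (R.erase 1).erase d := by
        intro x hx
        simp only [F, Finset.mem_filter, Finset.mem_univ, true_and] at hx
        exact Finset.mem_erase.mpr ⟨hx.2.2, Finset.mem_erase.mpr ⟨hx.2.1,
          Finset.mem_filter.mpr ⟨Finset.mem_univ _, hx.1⟩⟩⟩
      have h3 := Finset.card_le_card hsub
      rw [Finset.card_erase_of_mem (Finset.mem_erase.mpr ⟨hd1, hdR⟩), Finset.card_erase_of_mem h1R, hR] at h3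
      omega
    have hI₀F : I₀ ⊆ F := by
      intro x hx
      obtain ⟨a, haI, rfl⟩ := (hI₀ _).mp hx
      have haD := hID a haI
      simp only [F, Finset.mem_filter, Finset.mem_univ, true_and]
      refine ⟨⟨a, rfl⟩, ?_, ?_⟩
      · intro h; exact haD (hkerD h)
      · intro h
        have h7 : a * d'⁻¹ ∈ p.ker := by
          rw [MonoidHom.mem_ker, map_mul, map_inv, h, ← hd, mul_inv_cancel]
        have h8 := hkerD h7
        have h9 : a = (a * d'⁻¹) * d' := by group
        rw [h9] at haD
        exact haD (D.mul_mem h8 hd'D)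
    have hI₀card : I₀.card ≤ 2 := (Finset.card_le_card hI₀F).trans hFcard
    obtain ⟨a₁, ha₁⟩ := hI
    have hI₀ne : I₀.Nonempty := ⟨p a₁, (hI₀ _).mpr ⟨a₁, ha₁, rfl⟩⟩
    have hinvol : ∀ x ∈ I₀, x ^ 2 = 1 := by
      intro x hx
      obtain ⟨a, _, rfl⟩ := (hI₀ _).mp hx
      exact hsq_p _ ⟨a, rfl⟩
    have hne : ∀ x ∈ I₀, x ≠ 1 := by
      intro x hx
      have := (Finset.mem_filter.mp (hI₀F hx)).2
      exact this.2.1
    refine ⟨∏ x ∈ I₀, x, ?_, ?_⟩
    · apply orderOf_eq_prime
      · rw [← Finset.prod_pow]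
        exact Finset.prod_eq_one hinvol
      · have hc : I₀.card = 1 ∨ I₀.card = 2 := by
          have := hI₀ne.card_pos
          omega
        rcases hc with hc | hc
        · obtain ⟨c, hc⟩ := Finset.card_eq_one.mp hc
          rw [hc, Finset.prod_singleton]
          exact hne c (by rw [hc]; simp)
        · obtain ⟨c, c', hcc, hI⟩ := Finset.card_eq_two.mp hc
          rw [hI, Finset.prod_pair hcc]
          intro h
          have h3 : c' ^ 2 = 1 := hinvol c' (by rw [hI]; simp)
          have h4 : c = c'⁻¹ := eq_inv_of_mul_eq_one_left h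
          apply hcc
          rw [h4]
          rw [pow_two, mul_eq_one_iff_eq_inv] at h3
          rw [← h3]
    · intro φ hφ
      rw [map_prod]
      have himg : I₀.image φ = I₀ := by
        apply Finset.eq_of_subset_of_card_le
        · intro x hx
          obtain ⟨y, hy, rfl⟩ := Finset.mem_image.mp hx
          obtain ⟨a, haI, rfl⟩ := (hI₀ _).mp hy
          exact (hI₀ _).mpr ⟨φ a, hinv φ hφ a haI, (hequi φ a).symm⟩
        · rw [Finset.card_image_of_injective _ φ.injective]
      calc ∏ x ∈ I₀, φ x = ∏ x ∈ I₀.image φ, x := by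
            rw [Finset.prod_image (fun a _ b _ h => φ.injective h)]
        _ = ∏ x ∈ I₀, x := by rw [himg]

end Cfsg.Agent.Lib.InvolChar
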