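import Cfsg.Agent.S0215
import Cfsg.Agent.Lib.Core.Basic

/-!
# Applications of the `Z*`-theorem: Burnside fusion in the centre of a Sylow subgroup, growth of
centralizers inside the normalizer.
-/

set_option autoImplicit false

namespace Cfsg.Agent.Lib.InvolChar

open Cfsg

variable {G : Type*} [Group G] [Finite G]

lemma mem_smul_sylow {p : ℕ} [Fact p.Prime] (U : Sylow p G) (n x : G) :
    x ∈ ((n • U : Sylow p G) : Subgroup G) ↔ n⁻¹ * x * n ∈ (U : Subgroup G) := by
  rw [Sylow.coe_subgroup_smul, Subgroup.mem_pointwise_smul_iff_inv_smul_mem, MulAut.smul_def,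
    MulAut.conj_inv_apply]

/-- Two Sylow subgroups of `G` inside a subgroup `K` are conjugate in `K`. -/
lemma exists_smul_eq_of_le {p : ℕ} [Fact p.Prime] (P Q : Sylow p G) {K : Subgroup G}
    (hP : (P : Subgroup G) ≤ K) (hQ : (Q : Subgroup G) ≤ K) :
    ∃ h ∈ K, h • P = Q := by
  obtain ⟨h, hh⟩ := MulAction.exists_smul_eq K (P.subtype hP) (Q.subtype hQ)
  refine ⟨h, h.2, ?_⟩
  apply Sylow.ext
  ext x
  rw [mem_smul_sylow]
  constructor
  · intro hx
    have hx1 : h.1⁻¹ * x * h.1 ∈ K := hP hx
    have hxK : x ∈ K := by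
      have := K.mul_mem (K.mul_mem h.2 hx1) (K.inv_mem h.2)
      convert this using 1; group
    have : (⟨x, hxK⟩ : K) ∈ ((h • P.subtype hP : Sylow p K) : Subgroup K) := by
      rw [mem_smul_sylow]
      show _ ∈ (P : Subgroup G).subgroupOf K
      rw [Subgroup.mem_subgroupOf]
      exact hx
    rw [hh] at this
    have h2 : (⟨x, hxK⟩ : K) ∈ (Q : Subgroup G).subgroupOf K := this
    exact Subgroup.mem_subgroupOf.1 h2
  · intro hx
    have hxK : x ∈ K := hQ hx
    have h1 : (⟨x, hxK⟩ : K) ∈ ((Q.subtype hQ : Sylow p K) : Subgroup K) := by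
      show _ ∈ (Q : Subgroup G).subgroupOf K
      exact Subgroup.mem_subgroupOf.2 hx
    rw [← hh, mem_smul_sylow] at h1
    have h2 : _ ∈ (P : Subgroup G).subgroupOf K := h1
    exact Subgroup.mem_subgroupOf.1 h2

/-- Burnside's fusion lemma for central elements of a Sylow subgroup. -/
lemma exists_normalizer_conj_of_central {p : ℕ} [Fact p.Prime] (S : Sylow p G) {x y g : G}
    (hx : ∀ s ∈ (S : Subgroup G), s * x = x * s) (hy : ∀ s ∈ (S : Subgroup G), s * y = y * s)
    (hg : g * x * g⁻¹ = y) :
    ∃ n : G, n • S = S ∧ n * x * n⁻¹ = y := by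
  have h1 : ((g • S : Sylow p G) : Subgroup G) ≤ Subgroup.centralizer ({y} : Set G) := by
    intro t ht
    rw [mem_smul_sylow] at ht
    rw [Subgroup.mem_centralizer_iff]
    intro w hw
    rw [Set.mem_singleton_iff] at hw
    subst hw
    have := hx _ ht
    subst hg
    have e : t * (g * x * g⁻¹) = g * (g⁻¹ * t * g * x) * g⁻¹ := by group
    rw [e, this]
    group
  have h2 : (S : Subgroup G) ≤ Subgroup.centralizer ({y} : Set G) := by
    intro t ht
    rw [Subgroup.mem_centralizer_iff]
    intro w hw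
    rw [Set.mem_singleton_iff] at hw
    subst hw
    exact (hy t ht).symm
  obtain ⟨h, hh, hhS⟩ := exists_smul_eq_of_le (g • S) S h1 h2
  refine ⟨h * g, by rw [mul_smul, hhS], ?_⟩
  have hc : h * y * h⁻¹ = y := by
    rw [Subgroup.mem_centralizer_iff] at hh
    have := hh y rfl
    rw [← this]; group
  have e : h * g * x * (h * g)⁻¹ = h * (g * x * g⁻¹) * h⁻¹ := by group
  rw [e, hg, hc]

/-- In a finite group, stabilising a subgroup under conjugation means lying in its normalizer. -/
lemma mem_normalizer_of_conj_mem {D : Subgroup G} {x : G} (h : ∀ d ∈ D, x * d * x⁻¹ ∈ D) :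
    x ∈ Subgroup.normalizer (D : Set G) := by
  rw [Subgroup.mem_normalizer_iff]
  intro d
  constructor
  · exact h d
  · intro hd
    have hinj : Function.Injective (fun d : D => (⟨x * d * x⁻¹, h d d.2⟩ : D)) := by
      intro a b hab
      have := congrArg Subtype.val hab
      simp only at this
      exact Subtype.ext (by simpa using this)
    obtain ⟨a, ha⟩ := (Finite.injective_iff_surjective.1 hinj) ⟨_, hd⟩
    have := congrArg Subtype.val ha
    simp only at this
    have e : d = a := by simpa using this.symm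
    rw [e]; exact a.2

/-- A `p`-subgroup normalizing `D` lies in a Sylow subgroup centralizing `D`, if some Sylow subgroup
centralizes `D`. -/
lemma exists_sylow_centralizing {p : ℕ} [Fact p.Prime] {D P : Subgroup G} (U : Sylow p G)
    (hU : ∀ u ∈ (U : Subgroup G), ∀ d ∈ D, u * d = d * u) (hP : IsPGroup p P)
    (hPN : ∀ x ∈ P, ∀ d ∈ D, x * d * x⁻¹ ∈ D) :
    ∃ U₁ : Sylow p G, P ≤ U₁ ∧ ∀ u ∈ (U₁ : Subgroup G), ∀ d ∈ D, u * d = d * u := by
  set N : Subgroup G := Subgroup.normalizer (D : Set G) with hN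
  have hPle : P ≤ N := fun x hx => mem_normalizer_of_conj_mem (hPN x hx)
  have hUN : (U : Subgroup G) ≤ N := by
    intro u hu
    refine mem_normalizer_of_conj_mem fun d hd => ?_
    rw [hU u hu d hd]
    simpa using hd
  have hP' : IsPGroup p (P.subgroupOf N) := hP.comap_of_injective N.subtype Subtype.val_injective
  obtain ⟨Q, hQ⟩ := hP'.exists_le_sylow
  obtain ⟨n, hn⟩ := MulAction.exists_smul_eq N (U.subtype hUN) Q
  refine ⟨(n : G) • U, ?_, ?_⟩
  · intro x hx
    have h1 : (⟨x, hPle hx⟩ : N) ∈ (Q : Subgroup N) := hQ (Subgroup.mem_subgroupOf.2 hx)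
    rw [← hn, mem_smul_sylow] at h1
    have h2 : _ ∈ (U : Subgroup G).subgroupOf N := h1
    rw [mem_smul_sylow]
    exact Subgroup.mem_subgroupOf.1 h2
  · intro u hu d hd
    rw [mem_smul_sylow] at hu
    have h3 : (n : G)⁻¹ * d * n ∈ D := by
      have := (Subgroup.mem_normalizer_iff.1 (N.inv_mem n.2) d).1 hd
      simpa using this
    have h4 := hU _ hu _ h3
    have e1 : u * d = n * (((n : G)⁻¹ * u * n) * ((n : G)⁻¹ * d * n)) * (n : G)⁻¹ := by group
    have e2 : d * u = n * (((n : G)⁻¹ * d * n) * ((n : G)⁻¹ * u * n)) * (n : G)⁻¹ := by group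
    rw [e1, e2, h4]

/-- The `Z*`-theorem gives: an involution of a Sylow 2-subgroup weakly closed in it is central modulo `O(G)`. -/
lemma comm_mem_oddCore (P : Sylow 2 G) {u : G} (hu : orderOf u = 2) (huP : u ∈ (P : Subgroup G))
    (hiso : ∀ g : G, g * u * g⁻¹ ∈ (P : Subgroup G) → g * u * g⁻¹ = u) (g : G) :
    u * g * u⁻¹ * g⁻¹ ∈ oddCore G := by
  obtain ⟨N, hN, hodd, h⟩ := Cfsg.Agent.S0215.result P u hu huP hiso
  refine Cfsg.Agent.Lib.Core.le_pPrimeCore hN ?_ (h g)
  exact Nat.coprime_two_right.2 hodd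

/-- No non-abelian simple group has an involution weakly closed in a Sylow 2-subgroup. -/
lemma not_isSimple_of_weaklyClosed (P : Sylow 2 G) {u : G} (hu : orderOf u = 2)
    (huP : u ∈ (P : Subgroup G))
    (hiso : ∀ g : G, g * u * g⁻¹ ∈ (P : Subgroup G) → g * u * g⁻¹ = u) {a b : G} (hab : a * b ≠ b * a) :
    ¬ IsSimpleGroup G := by
  intro hs
  obtain ⟨N, hN, hodd, h⟩ := Cfsg.Agent.S0215.result P u hu huP hiso
  rcases hN.eq_bot_or_eq_top with h0 | h0
  · have hz : u ∈ Subgroup.center G := by
      rw [Subgroup.mem_center_iff]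
      intro g
      have := h g
      rw [h0, Subgroup.mem_bot] at this
      have h2 : u⁻¹ = u := by
        have := pow_orderOf_eq_one u
        rw [hu, pow_two] at this
        exact inv_eq_of_mul_eq_one_left this
      rw [h2] at this
      have e : u * g * u * g⁻¹ * (g * u) = u * g := by
        have : u * g * u * g⁻¹ * (g * u) = u * g * (u * u) := by group
        rw [this]
        have h3 : u * u = 1 := by
          have := pow_orderOf_eq_one u
          rwa [hu, pow_two] at this
        rw [h3, mul_one]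
      rw [this, one_mul] at e
      exact e
    rcases (inferInstance : (Subgroup.center G).Normal).eq_bot_or_eq_top with h1 | h1
    · rw [h1, Subgroup.mem_bot] at hz
      rw [hz] at hu
      simp at hu
    · have : a ∈ Subgroup.center G := by rw [h1]; trivial
      exact hab ((Subgroup.mem_center_iff.1 this b).symm)
  · have h1 : Nat.card N = Nat.card G := by rw [h0]; simp
    rw [h1] at hodd
    have h2 : 2 ∣ Nat.card G := by
      rw [← hu]; exact orderOf_dvd_natCard u
    exact (Nat.not_even_iff_odd.2 hodd) (even_iff_two_dvd.2 h2)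

end Cfsg.Agent.Lib.InvolChar
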